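import Mathlib
set_option autoImplicit false
namespace H96.AnisoWitt

variable {F V : Type*} [Field F] [AddCommGroup V] [Module F V]

open QuadraticMap

/-- reflection in a nonsingular vector, any characteristic -/
noncomputable def refl (Q : QuadraticForm F V) (r : V) (hr : Q r ≠ 0) : Q.IsometryEquiv Q where
  toLinearEquiv := Module.reflection (x := r) (f := (Q r)⁻¹ • (QuadraticMap.polarBilin Q r)) (by
    simp only [LinearMap.smul_apply, polarBilin_apply_apply, polar_self, smul_eq_mul]
    rw [nsmul_eq_mul, mul_left_comm, inv_mul_cancel₀ hr, mul_one]; norm_num)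
  map_app' := by
    intro m
    simp only [AddHom.toFun_eq_coe, LinearMap.coe_toAddHom, LinearEquiv.coe_coe, Module.reflection_apply,
      LinearMap.smul_apply, polarBilin_apply_apply, smul_eq_mul]
    rw [sub_eq_add_neg, QuadraticMap.map_add Q, QuadraticMap.map_neg, QuadraticMap.map_smul, QuadraticMap.polar_neg_right,
      QuadraticMap.polar_smul_right, QuadraticMap.polar_comm Q m r]
    simp only [smul_eq_mul]
    field_simp
    ring

theorem refl_apply (Q : QuadraticForm F V) (r : V) (hr : Q r ≠ 0) (x : V) :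
    refl Q r hr x = x - ((Q r)⁻¹ * polar Q r x) • r := rfl

theorem exists_isom (Q : QuadraticForm F V) (hQ : Q.Anisotropic) (n : ℕ) (v v' : ℕ → V)
    (h0 : ∀ i, Q (v i) = Q (v' i)) (h : ∀ i j, polar Q (v i) (v j) = polar Q (v' i) (v' j)) :
    ∃ φ : Q.IsometryEquiv Q, ∀ i < n, φ (v i) = v' i := by
  induction n with
  | zero => exact ⟨QuadraticMap.IsometryEquiv.refl Q, fun i hi => absurd hi (Nat.not_lt_zero _)⟩
  | succ n ih =>
    obtain ⟨φ, hφ⟩ := ih
    by_cases heq : φ (v n) = v' n
    · refine ⟨φ, fun i hi => ?_⟩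
      rcases Nat.lt_succ_iff_lt_or_eq.mp hi with hi | rfl
      · exact hφ i hi
      · exact heq
    · set r := φ (v n) - v' n with hr
      have hr0 : r ≠ 0 := sub_ne_zero.mpr heq
      have hQr : Q r ≠ 0 := fun hh => hr0 (hQ r hh)
      have hpol : ∀ x y, polar Q (φ x) (φ y) = polar Q x y := by
        intro x y
        unfold polar
        rw [← map_add, φ.map_app, φ.map_app, φ.map_app]
      have hQr' : Q r = Q (v' n) + Q (v' n) - polar Q (φ (v n)) (v' n) := by
        rw [hr, sub_eq_add_neg, QuadraticMap.map_add Q, QuadraticMap.map_neg, QuadraticMap.polar_neg_right, φ.map_app, h0]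
        ring
      refine ⟨φ.trans (refl Q r hQr), fun i hi => ?_⟩
      change refl Q r hQr (φ (v i)) = v' i
      rw [refl_apply]
      rcases Nat.lt_succ_iff_lt_or_eq.mp hi with hi | rfl
      · have : polar Q r (φ (v i)) = 0 := by
          rw [hr, QuadraticMap.polar_sub_left, hpol, hφ i hi, h, sub_self]
        rw [this, mul_zero, zero_smul, sub_zero, hφ i hi]
      · have : polar Q r (φ (v i)) = Q r := by
          rw [hQr']
          conv_lhs => rw [hr, QuadraticMap.polar_sub_left, hpol, QuadraticMap.polar_self, h0]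
          rw [QuadraticMap.polar_comm Q (v' i) (φ (v i)), two_nsmul]
        rw [this, inv_mul_cancel₀ hQr, one_smul, hr]
        abel

theorem main (Q : QuadraticForm F V) (hQ : Q.Anisotropic) (n : ℕ) (hn : 2 ≤ n) (u u' : Fin n → V)
    (h2 : ∀ i j : Fin n, i ≠ j → ∃ (φ : Q.IsometryEquiv Q) (c : V), φ (u i) + c = u' i ∧ φ (u j) + c = u' j) :
    ∃ (φ : Q.IsometryEquiv Q) (c : V), ∀ i, φ (u i) + c = u' i := by
  have hdist : ∀ i j : Fin n, Q (u i - u j) = Q (u' i - u' j) := by
    intro i j
    by_cases hij : i = j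
    · rw [hij, sub_self, sub_self]
    obtain ⟨φ, c, hi, hj⟩ := h2 i j hij
    rw [← hi, ← hj, add_sub_add_right_eq_sub, ← map_sub, φ.map_app]
  let z : Fin n := ⟨0, by omega⟩
  let v : ℕ → V := fun i => if hi : i < n then u ⟨i, hi⟩ - u z else 0
  let v' : ℕ → V := fun i => if hi : i < n then u' ⟨i, hi⟩ - u' z else 0
  have h0 : ∀ i, Q (v i) = Q (v' i) := by
    intro i
    by_cases hi : i < n
    · simp only [v, v', dif_pos hi]; exact hdist _ _
    · simp only [v, v', dif_neg hi]
  have hsub : ∀ i j, Q (v i - v j) = Q (v' i - v' j) := by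
    intro i j
    by_cases hi : i < n
    · by_cases hj : j < n
      · simp only [v, v', dif_pos hi, dif_pos hj, sub_sub_sub_cancel_right]; exact hdist _ _
      · have e1 : v j = 0 := by simp only [v, dif_neg hj]
        have e2 : v' j = 0 := by simp only [v', dif_neg hj]
        rw [e1, e2, sub_zero, sub_zero]; exact h0 i
    · have e1 : v i = 0 := by simp only [v, dif_neg hi]
      have e2 : v' i = 0 := by simp only [v', dif_neg hi]
      rw [e1, e2, zero_sub, zero_sub, QuadraticMap.map_neg, QuadraticMap.map_neg]; exact h0 j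
  have hpol : ∀ i j, polar Q (v i) (v j) = polar Q (v' i) (v' j) := by
    intro i j
    have e : ∀ x y : V, polar Q x y = Q x + Q y - Q (x - y) := by
      intro x y
      rw [sub_eq_add_neg x y, QuadraticMap.map_add Q, QuadraticMap.map_neg, QuadraticMap.polar_neg_right]
      ring
    rw [e, e, h0, h0, hsub]
  obtain ⟨φ, hφ⟩ := exists_isom Q hQ n v v' h0 hpol
  refine ⟨φ, u' z - φ (u z), fun i => ?_⟩
  have := hφ i i.2
  simp only [v, v', dif_pos i.2] at this
  rw [map_sub] at this
  have h3 : φ (u i) = u' i - u' z + φ (u z) := by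
    rw [← this]; simp
  rw [h3]; abel

end H96.AnisoWitt
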