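import Mathlib
set_option autoImplicit false
namespace H96.DerCount

set_option linter.unusedSectionVars false
variable {G Ω : Type*} [Group G] [Finite G] [MulAction G Ω] [Fintype Ω]

theorem sum_fix [Fintype G] : ∑ g : G, Nat.card (MulAction.fixedBy Ω g) = Nat.card (Quotient (MulAction.orbitRel G Ω)) * Nat.card G := by
  classical
  have := MulAction.sum_card_fixedBy_eq_card_orbits_mul_card_group G Ω
  simpa [Nat.card_eq_fintype_card] using this

theorem sum_fix_sq [Fintype G] : ∑ g : G, Nat.card (MulAction.fixedBy Ω g) ^ 2 = Nat.card (Quotient (MulAction.orbitRel G (Ω × Ω))) * Nat.card G := by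
  classical
  rw [← sum_fix (Ω := Ω × Ω)]
  apply Finset.sum_congr rfl
  intro g _
  rw [sq, ← Nat.card_prod]
  apply Nat.card_congr
  exact
    { toFun := fun x => ⟨(x.1.1, x.2.1), by
        have h1 := x.1.2; have h2 := x.2.2
        rw [MulAction.mem_fixedBy] at *
        rw [Prod.smul_mk, h1, h2]⟩
      invFun := fun y => (⟨y.1.1, by
        have h := y.2
        rw [MulAction.mem_fixedBy] at *
        exact congrArg Prod.fst h⟩, ⟨y.1.2, by
        have h := y.2
        rw [MulAction.mem_fixedBy] at *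
        exact congrArg Prod.snd h⟩)
      left_inv := fun _ => rfl
      right_inv := fun _ => rfl }

theorem fix_le (g : G) : Nat.card (MulAction.fixedBy Ω g) ≤ Fintype.card Ω := by
  rw [← Nat.card_eq_fintype_card]
  exact Finite.card_subtype_le _

theorem fix_zero_iff (g : G) : Nat.card (MulAction.fixedBy Ω g) = 0 ↔ ∀ ω : Ω, g • ω ≠ ω := by
  rw [Finite.card_eq_zero_iff, isEmpty_subtype]
  rfl

theorem fix_full (g : G) [FaithfulSMul G Ω] (h : Nat.card (MulAction.fixedBy Ω g) = Fintype.card Ω) : g = 1 := by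
  rw [← Nat.card_eq_fintype_card] at h
  have h2 : MulAction.fixedBy Ω g = Set.univ := by
    apply Set.eq_of_subset_of_ncard_le (Set.subset_univ _)
    rw [Set.ncard_univ, ← h]; rfl
  apply FaithfulSMul.eq_of_smul_eq_smul (α := Ω)
  intro ω
  rw [one_smul]
  have : ω ∈ MulAction.fixedBy Ω g := by rw [h2]; trivial
  exact this

/-- number of derangements times n as an integer sum -/
theorem count [Fintype G] (htr : MulAction.IsPretransitive G Ω) [Nonempty Ω] :
    ((Fintype.card Ω : ℤ) * Nat.card {g : G // ∀ ω : Ω, g • ω ≠ ω}) =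
      ((Nat.card (Quotient (MulAction.orbitRel G (Ω × Ω))) : ℤ) - 1) * Nat.card G
      + ∑ g ∈ Finset.univ.filter (fun g : G => Nat.card (MulAction.fixedBy Ω g) ≠ 0),
          ((Nat.card (MulAction.fixedBy Ω g) : ℤ) - 1) * ((Fintype.card Ω : ℤ) - Nat.card (MulAction.fixedBy Ω g)) := by
  classical
  have h1 := sum_fix (G := G) (Ω := Ω)
  have h2 := sum_fix_sq (G := G) (Ω := Ω)
  have horb : Nat.card (Quotient (MulAction.orbitRel G Ω)) = 1 := by
    rw [Nat.card_eq_one_iff_unique]
    refine ⟨?_, ⟨Quotient.mk'' (Classical.arbitrary Ω)⟩⟩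
    exact (MulAction.pretransitive_iff_subsingleton_quotient G Ω).mp htr
  rw [horb, one_mul] at h1
  have h1' : (∑ g : G, (Nat.card (MulAction.fixedBy Ω g) : ℤ)) = Nat.card G := by
    rw [← h1]; push_cast; rfl
  have h2' : (∑ g : G, (Nat.card (MulAction.fixedBy Ω g) : ℤ)^2) = Nat.card (Quotient (MulAction.orbitRel G (Ω × Ω))) * Nat.card G := by
    have := congrArg (fun x : ℕ => (x : ℤ)) h2
    push_cast at this
    exact this
  have hder : ∑ g ∈ Finset.univ.filter (fun g : G => ¬ Nat.card (MulAction.fixedBy Ω g) ≠ 0),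
      ((Nat.card (MulAction.fixedBy Ω g) : ℤ) - 1) * ((Nat.card (MulAction.fixedBy Ω g) : ℤ) - Fintype.card Ω)
      = (Fintype.card Ω : ℤ) * Nat.card {g : G // ∀ ω : Ω, g • ω ≠ ω} := by
    rw [Finset.sum_congr rfl (g := fun _ => (Fintype.card Ω : ℤ))]
    · rw [Finset.sum_const, nsmul_eq_mul, mul_comm]
      congr 1
      norm_cast
      rw [Nat.card_eq_fintype_card, Fintype.card_subtype]
      congr 1
      ext g
      simp only [Finset.mem_filter, Finset.mem_univ, true_and, not_not]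
      exact fix_zero_iff g
    · intro g hg
      simp only [Finset.mem_filter, Finset.mem_univ, true_and, not_not] at hg
      rw [hg]; push_cast; ring
  have htot : ∑ g : G, ((Nat.card (MulAction.fixedBy Ω g) : ℤ) - 1) * ((Nat.card (MulAction.fixedBy Ω g) : ℤ) - Fintype.card Ω)
      = ((Nat.card (Quotient (MulAction.orbitRel G (Ω × Ω))) : ℤ) - 1) * Nat.card G := by
    have : ∀ g : G, ((Nat.card (MulAction.fixedBy Ω g) : ℤ) - 1) * ((Nat.card (MulAction.fixedBy Ω g) : ℤ) - Fintype.card Ω)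
      = (Nat.card (MulAction.fixedBy Ω g) : ℤ)^2 - ((Fintype.card Ω : ℤ) + 1) * (Nat.card (MulAction.fixedBy Ω g) : ℤ) + Fintype.card Ω := by
      intro g; ring
    simp_rw [this]
    rw [Finset.sum_add_distrib, Finset.sum_sub_distrib, ← Finset.mul_sum, h1', h2', Finset.sum_const, Finset.card_univ, nsmul_eq_mul, ← Nat.card_eq_fintype_card (α := G)]
    ring
  have hsplit := Finset.sum_filter_add_sum_filter_not (Finset.univ : Finset G) (fun g : G => Nat.card (MulAction.fixedBy Ω g) ≠ 0)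
    (fun g => ((Nat.card (MulAction.fixedBy Ω g) : ℤ) - 1) * ((Nat.card (MulAction.fixedBy Ω g) : ℤ) - Fintype.card Ω))
  rw [htot, hder] at hsplit
  have hneg : ∑ g ∈ Finset.univ.filter (fun g : G => Nat.card (MulAction.fixedBy Ω g) ≠ 0),
          ((Nat.card (MulAction.fixedBy Ω g) : ℤ) - 1) * ((Fintype.card Ω : ℤ) - Nat.card (MulAction.fixedBy Ω g))
      = - ∑ g ∈ Finset.univ.filter (fun g : G => Nat.card (MulAction.fixedBy Ω g) ≠ 0),
          ((Nat.card (MulAction.fixedBy Ω g) : ℤ) - 1) * ((Nat.card (MulAction.fixedBy Ω g) : ℤ) - Fintype.card Ω) := by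
    rw [← Finset.sum_neg_distrib]
    apply Finset.sum_congr rfl
    intro g _; ring
  rw [hneg]; linarith

theorem term_nonneg (g : G) (h : Nat.card (MulAction.fixedBy Ω g) ≠ 0) :
    0 ≤ ((Nat.card (MulAction.fixedBy Ω g) : ℤ) - 1) * ((Fintype.card Ω : ℤ) - Nat.card (MulAction.fixedBy Ω g)) := by
  have h1 := fix_le (Ω := Ω) g
  apply mul_nonneg
  · have : 1 ≤ Nat.card (MulAction.fixedBy Ω g) := Nat.one_le_iff_ne_zero.mpr h
    omega
  · omega

theorem two_le_rank (hn : 2 ≤ Fintype.card Ω) : 2 ≤ Nat.card (Quotient (MulAction.orbitRel G (Ω × Ω))) := by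
  classical
  obtain ⟨a, b, hab⟩ := Fintype.exists_pair_of_one_lt_card (α := Ω) (by omega)
  have : Nontrivial (Quotient (MulAction.orbitRel G (Ω × Ω))) := by
    refine ⟨⟨Quotient.mk'' (a, a), Quotient.mk'' (a, b), ?_⟩⟩
    intro h
    rw [Quotient.eq''] at h
    change (a, a) ∈ MulAction.orbit G (a, b) at h
    obtain ⟨g, hg⟩ := h
    simp only [Prod.smul_mk, Prod.mk.injEq] at hg
    apply hab
    have := hg.1.trans hg.2.symm
    exact MulAction.injective g this
  exact Finite.one_lt_card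

theorem main [FaithfulSMul G Ω] (htr : MulAction.IsPretransitive G Ω) (hn : 3 ≤ Fintype.card Ω) :
    ((MulAction.IsPretransitive G Ω ∧ (∃ g : G, g ≠ 1 ∧ ∃ ω : Ω, g • ω = ω) ∧ ∀ g : G, g ≠ 1 → Nat.card (MulAction.fixedBy Ω g) ≤ 1) ∧ Nat.card G = Fintype.card Ω * (Fintype.card Ω - 1) ∧ Fintype.card Ω * Nat.card {g : G // ∀ ω : Ω, g • ω ≠ ω} = Nat.card G) ∨
    Nat.card G < Fintype.card Ω * Nat.card {g : G // ∀ ω : Ω, g • ω ≠ ω} := by
  classical
  have : Fintype G := Fintype.ofFinite G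
  have : Nonempty Ω := Fintype.card_pos_iff.mp (by omega)
  have hc := count (G := G) htr
  have hr := two_le_rank (G := G) (Ω := Ω) (by omega)
  set r := Nat.card (Quotient (MulAction.orbitRel G (Ω × Ω))) with hrdef
  have hGpos : 0 < Nat.card G := Nat.card_pos
  have hnn := Finset.sum_nonneg (s := Finset.univ.filter (fun g : G => Nat.card (MulAction.fixedBy Ω g) ≠ 0)) (f := fun g : G =>
    ((Nat.card (MulAction.fixedBy Ω g) : ℤ) - 1) * ((Fintype.card Ω : ℤ) - Nat.card (MulAction.fixedBy Ω g)))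
    (fun g hg => term_nonneg g (Finset.mem_filter.mp hg).2)
  by_cases hlt : Nat.card G < Fintype.card Ω * Nat.card {g : G // ∀ ω : Ω, g • ω ≠ ω}
  · exact Or.inr hlt
  left
  push Not at hlt
  have hlt' : (Fintype.card Ω : ℤ) * Nat.card {g : G // ∀ ω : Ω, g • ω ≠ ω} ≤ Nat.card G := by exact_mod_cast hlt
  have hr' : (2 : ℤ) ≤ r := by exact_mod_cast hr
  have hG' : (0 : ℤ) < Nat.card G := by exact_mod_cast hGpos
  have hr2 : (r : ℤ) = 2 := by nlinarith
  have hs0 : ∑ g ∈ Finset.univ.filter (fun g : G => Nat.card (MulAction.fixedBy Ω g) ≠ 0),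
          ((Nat.card (MulAction.fixedBy Ω g) : ℤ) - 1) * ((Fintype.card Ω : ℤ) - Nat.card (MulAction.fixedBy Ω g)) = 0 := by
    rw [hr2] at hc; linarith
  have heach := (Finset.sum_eq_zero_iff_of_nonneg (fun g hg => term_nonneg g (Finset.mem_filter.mp hg).2)).mp hs0
  have hle1 : ∀ g : G, g ≠ 1 → Nat.card (MulAction.fixedBy Ω g) ≤ 1 := by
    intro g hg
    by_cases h0 : Nat.card (MulAction.fixedBy Ω g) = 0
    · omega
    have h := heach g (Finset.mem_filter.mpr ⟨Finset.mem_univ _, h0⟩)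
    rcases mul_eq_zero.mp h with h | h
    · omega
    · exact absurd (fix_full (Ω := Ω) g (by omega)) hg
  have hderEq : Fintype.card Ω * Nat.card {g : G // ∀ ω : Ω, g • ω ≠ ω} = Nat.card G := by
    rw [hs0, hr2] at hc
    have : (Fintype.card Ω : ℤ) * Nat.card {g : G // ∀ ω : Ω, g • ω ≠ ω} = Nat.card G := by linarith
    exact_mod_cast this
  -- order of G
  have h1 := sum_fix (G := G) (Ω := Ω)
  have h2 := sum_fix_sq (G := G) (Ω := Ω)
  have horb : Nat.card (Quotient (MulAction.orbitRel G Ω)) = 1 := by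
    rw [Nat.card_eq_one_iff_unique]
    refine ⟨?_, ⟨Quotient.mk'' (Classical.arbitrary Ω)⟩⟩
    exact (MulAction.pretransitive_iff_subsingleton_quotient G Ω).mp htr
  rw [horb, one_mul] at h1
  have hr2n : r = 2 := by exact_mod_cast hr2
  rw [← hrdef, hr2n] at h2
  have hone : Nat.card (MulAction.fixedBy Ω (1 : G)) = Fintype.card Ω := by
    rw [MulAction.fixedBy_one_eq_univ, Nat.card_univ, Nat.card_eq_fintype_card]
  have e1 := Finset.add_sum_erase Finset.univ (fun g : G => Nat.card (MulAction.fixedBy Ω g)) (Finset.mem_univ (1 : G))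
  have e2 := Finset.add_sum_erase Finset.univ (fun g : G => Nat.card (MulAction.fixedBy Ω g) ^ 2) (Finset.mem_univ (1 : G))
  have e3 : ∑ g ∈ Finset.univ.erase (1 : G), Nat.card (MulAction.fixedBy Ω g) ^ 2 = ∑ g ∈ Finset.univ.erase (1 : G), Nat.card (MulAction.fixedBy Ω g) := by
    apply Finset.sum_congr rfl
    intro g hg
    have := hle1 g (Finset.ne_of_mem_erase hg)
    interval_cases h : Nat.card (MulAction.fixedBy Ω g) <;> rfl
  simp only [hone] at e1 e2
  rw [h1] at e1
  rw [h2, e3] at e2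
  obtain ⟨k, hk⟩ : ∃ k, Fintype.card Ω = k + 3 := ⟨Fintype.card Ω - 3, by omega⟩
  have hcardG : Nat.card G = Fintype.card Ω * (Fintype.card Ω - 1) := by
    have h3 : Nat.card G + Fintype.card Ω = Fintype.card Ω ^ 2 := by omega
    rw [hk] at h3 ⊢
    have : k + 3 - 1 = k + 2 := by omega
    rw [this]
    nlinarith
  refine ⟨⟨htr, ?_, hle1⟩, hcardG, hderEq⟩
  by_contra hcon
  push Not at hcon
  have hz : ∑ g ∈ Finset.univ.erase (1 : G), Nat.card (MulAction.fixedBy Ω g) = 0 := by
    apply Finset.sum_eq_zero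
    intro g hg
    rw [fix_zero_iff]
    exact hcon g (Finset.ne_of_mem_erase hg)
  rw [hz, add_zero] at e1
  rw [hk] at e1 hcardG
  have : k + 3 - 1 = k + 2 := by omega
  rw [this] at hcardG
  nlinarith

end H96.DerCount
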