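import Mathlib
set_option autoImplicit false
namespace H96.IBIS

variable {G Ω : Type*} [Group G] [MulAction G Ω]

/-- every point in the sequence is moved by something fixing the previous ones -/
def Irr (G : Type*) {Ω : Type*} [Group G] [MulAction G Ω] {t : ℕ} (f : Fin t → Ω) : Prop :=
  ∀ i : Fin t, ∃ g : G, (∀ j : Fin t, j < i → g • f j = f j) ∧ g • f i ≠ f i

def Bas (G : Type*) {Ω : Type*} [Group G] [MulAction G Ω] {t : ℕ} (f : Fin t → Ω) : Prop :=
  ∀ g : G, (∀ i : Fin t, g • f i = f i) → g = 1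

/-- irredundant base, list form -/
def IB (G : Type*) {Ω : Type*} [Group G] [MulAction G Ω] {t : ℕ} (f : Fin t → Ω) : Prop :=
  (∀ g : G, (∀ i : Fin t, g • f i = f i) → g = 1) ∧
    ∀ i : Fin t, ∃ g : G, (∀ j : Fin t, j < i → g • f j = f j) ∧ g • f i ≠ f i

theorem IB.inj {t : ℕ} {f : Fin t → Ω} (h : IB G f) : Function.Injective f := by
  intro i j hij
  by_contra hne
  wlog hlt : i < j generalizing i j
  · exact this hij.symm (Ne.symm hne) (lt_of_le_of_ne (not_lt.mp hlt) (Ne.symm hne))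
  obtain ⟨g, hg1, hg2⟩ := h.2 j
  apply hg2
  rw [← hij]
  exact hg1 i hlt

/-- greedy deletion -/
theorem greedy {t : ℕ} (f : Fin t → Ω) (hb : ∀ g : G, (∀ i : Fin t, g • f i = f i) → g = 1) :
    ∃ (t' : ℕ) (f' : Fin t' → Ω), IB G f' ∧ t' ≤ t ∧ (t' = t → IB G f) := by
  classical
  let I : Finset (Fin t) := Finset.univ.filter (fun i => ∃ g : G, (∀ j : Fin t, j < i → g • f j = f j) ∧ g • f i ≠ f i)
  have hI : ∀ i, i ∈ I ↔ ∃ g : G, (∀ j : Fin t, j < i → g • f j = f j) ∧ g • f i ≠ f i := fun i => by simp [I]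
  have key : ∀ (g : G) (j : Fin t), (∀ k ∈ I, k ≤ j → g • f k = f k) → g • f j = f j := by
    intro g j
    induction j using WellFoundedLT.induction with
    | ind j ih =>
      intro h
      by_cases hj : j ∈ I
      · exact h j hj le_rfl
      · by_contra hne
        apply hj
        rw [hI]
        exact ⟨g, fun k hk => ih k hk (fun l hl hlk => h l hl (hlk.trans hk.le)), hne⟩
  let e := I.orderEmbOfFin rfl
  refine ⟨I.card, f ∘ e, ⟨?_, ?_⟩, ?_, ?_⟩
  · intro g hg
    apply hb
    intro i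
    apply key g i
    intro k hk _
    have : k ∈ Set.range e := by rw [Finset.range_orderEmbOfFin]; exact hk
    obtain ⟨m, rfl⟩ := this
    exact hg m
  · intro i
    have hei : e i ∈ I := Finset.orderEmbOfFin_mem _ _ _
    obtain ⟨g, hg1, hg2⟩ := (hI _).mp hei
    exact ⟨g, fun j hj => hg1 _ (e.lt_iff_lt.mpr hj), hg2⟩
  · simpa using Finset.card_le_univ I
  · intro hcard
    have hIu : I = Finset.univ := by
      rw [← Finset.card_eq_iff_eq_univ, hcard, Fintype.card_fin]
    refine ⟨hb, fun i => ?_⟩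
    rw [← hI, hIu]
    exact Finset.mem_univ _

/-- minimal base -/
def MB (G : Type*) {Ω : Type*} [Group G] [MulAction G Ω] (S : Finset Ω) : Prop :=
  (∀ g : G, (∀ x ∈ S, g • x = x) → g = 1) ∧ ∀ b ∈ S, ∃ g : G, (∀ x ∈ S, x ≠ b → g • x = x) ∧ g • b ≠ b

theorem MB.ib {S : Finset Ω} (h : MB G S) {t : ℕ} {f : Fin t → Ω} (hf : Function.Injective f)
    (himg : ∀ x, x ∈ S ↔ ∃ i, f i = x) : IB G f := by
  refine ⟨fun g hg => h.1 g (fun x hx => ?_), fun i => ?_⟩
  · obtain ⟨i, rfl⟩ := (himg x).mp hx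
    exact hg i
  · obtain ⟨g, hg1, hg2⟩ := h.2 (f i) ((himg _).mpr ⟨i, rfl⟩)
    exact ⟨g, fun j hj => hg1 _ ((himg _).mpr ⟨j, rfl⟩) (fun hh => hj.ne (hf hh)), hg2⟩

/-- with the reordering hypothesis an irredundant base is a minimal base -/
theorem IB.mb (hyp : ∀ (t : ℕ) (f : Fin t → Ω) (σ : Equiv.Perm (Fin t)), IB G f → IB G (f ∘ σ))
    {t : ℕ} {f : Fin t → Ω} (h : IB G f) (S : Finset Ω) (himg : ∀ x, x ∈ S ↔ ∃ i, f i = x) : MB G S := by
  refine ⟨fun g hg => h.1 g (fun i => hg _ ((himg _).mpr ⟨i, rfl⟩)), ?_⟩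
  intro b hb
  obtain ⟨i, rfl⟩ := (himg b).mp hb
  obtain ⟨n, rfl⟩ : ∃ n, t = n + 1 := ⟨t - 1, by have := i.2; omega⟩
  let σ : Equiv.Perm (Fin (n + 1)) := Equiv.swap i (Fin.last n)
  have h2 := hyp _ f σ h
  obtain ⟨g, hg1, hg2⟩ := h2.2 (Fin.last n)
  refine ⟨g, ?_, ?_⟩
  · intro x hx hxi
    obtain ⟨k, rfl⟩ := (himg x).mp hx
    have hki : k ≠ i := fun hh => hxi (by rw [hh])
    have hne : σ k ≠ Fin.last n := by
      intro hh
      apply hki
      have : σ (σ k) = k := Equiv.swap_apply_self _ _ _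
      rw [← this, hh]
      exact Equiv.swap_apply_right _ _
    have h3 := hg1 (σ k) (lt_of_le_of_ne (Fin.le_last _) hne)
    simp only [Function.comp_apply] at h3
    have : σ (σ k) = k := Equiv.swap_apply_self _ _ _
    rwa [this] at h3
  · simp only [Function.comp_apply] at hg2
    have : σ (Fin.last n) = i := Equiv.swap_apply_right _ _
    rwa [this] at hg2

theorem irr_snoc {n : ℕ} (f : Fin n → Ω) (c : Ω) (hf : Irr G f) (g : G) (hg : ∀ i, g • f i = f i) (hc : g • c ≠ c) :
    Irr G (Fin.snoc (α := fun _ => Ω) f c) := by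
  intro i
  refine Fin.lastCases ?_ (fun i => ?_) i
  · refine ⟨g, fun j hj => ?_, ?_⟩
    · have : j = (Fin.castSucc (j.castLT hj)) := by simp
      rw [this, Fin.snoc_castSucc]
      exact hg _
    · rw [Fin.snoc_last]; exact hc
  · obtain ⟨k, hk1, hk2⟩ := hf i
    refine ⟨k, fun j hj => ?_, ?_⟩
    · have hj' : j.val < n := lt_trans (Fin.lt_def.mp hj) i.2
      have : j = (Fin.castSucc (j.castLT hj')) := by simp
      rw [this, Fin.snoc_castSucc]
      apply hk1
      rw [this] at hj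
      exact hj
    · rw [Fin.snoc_castSucc]; exact hk2

theorem exchange [DecidableEq Ω] (hyp : ∀ (t : ℕ) (f : Fin t → Ω) (σ : Equiv.Perm (Fin t)), IB G f → IB G (f ∘ σ))
    (B C : Finset Ω) (hB : MB G B) (hC : MB G C) (b : Ω) (hb : b ∈ B) (hbC : b ∉ C) :
    ∃ c ∈ C, c ∉ B ∧ MB G (insert c (B.erase b)) := by
  obtain ⟨g0, hg0, hg0b⟩ := hB.2 b hb
  have hg01 : g0 ≠ 1 := by rintro rfl; exact hg0b (one_smul _ _)
  obtain ⟨c, hcC, hc⟩ : ∃ c ∈ C, g0 • c ≠ c := by
    by_contra hcon
    push Not at hcon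
    exact hg01 (hC.1 g0 hcon)
  have hcb : c ≠ b := fun h => hbC (h ▸ hcC)
  have hcB : c ∉ B := fun h => hc (hg0 c h hcb)
  refine ⟨c, hcC, hcB, ?_⟩
  -- enumerate B.erase b
  let e := (B.erase b).equivFin.symm
  let f : Fin (B.erase b).card → Ω := fun i => (e i : Ω)
  have hfinj : Function.Injective f := fun i j hij => e.injective (Subtype.ext hij)
  have hfmem : ∀ i, f i ∈ B.erase b := fun i => (e i).2
  have hfsurj : ∀ x ∈ B.erase b, ∃ i, f i = x := fun x hx => ⟨e.symm ⟨x, hx⟩, by simp [f]⟩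
  have hfirr : Irr G f := by
    intro i
    obtain ⟨g, hg1, hg2⟩ := hB.2 (f i) (Finset.mem_of_mem_erase (hfmem i))
    exact ⟨g, fun j hj => hg1 _ (Finset.mem_of_mem_erase (hfmem j)) (fun hh => hj.ne (hfinj hh)), hg2⟩
  have hg0f : ∀ i, g0 • f i = f i := fun i => hg0 _ (Finset.mem_of_mem_erase (hfmem i)) (Finset.ne_of_mem_erase (hfmem i))
  have hirr1 := irr_snoc f c hfirr g0 hg0f hc
  by_cases hbase : ∀ g : G, (∀ x ∈ insert c (B.erase b), g • x = x) → g = 1
  · refine IB.mb hyp (f := Fin.snoc (α := fun _ => Ω) f c) ⟨fun g hg => hbase g ?_, hirr1⟩ _ ?_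
    · intro x hx
      rcases Finset.mem_insert.mp hx with rfl | hx
      · have := hg (Fin.last _); rwa [Fin.snoc_last] at this
      · obtain ⟨i, rfl⟩ := hfsurj x hx
        have := hg i.castSucc; rwa [Fin.snoc_castSucc] at this
    · intro x
      constructor
      · intro hx
        rcases Finset.mem_insert.mp hx with rfl | hx
        · exact ⟨Fin.last _, Fin.snoc_last _ _⟩
        · obtain ⟨i, rfl⟩ := hfsurj x hx
          exact ⟨i.castSucc, Fin.snoc_castSucc _ _ _⟩
      · rintro ⟨i, rfl⟩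
        refine Fin.lastCases ?_ (fun i => ?_) i
        · rw [Fin.snoc_last]; exact Finset.mem_insert_self _ _
        · rw [Fin.snoc_castSucc]; exact Finset.mem_insert_of_mem (hfmem i)
  · exfalso
    push Not at hbase
    obtain ⟨g, hg, hg1⟩ := hbase
    have hgb : g • b ≠ b := by
      intro hh
      apply hg1
      apply hB.1
      intro x hx
      by_cases hxb : x = b
      · rw [hxb, hh]
      · exact hg x (Finset.mem_insert_of_mem (Finset.mem_erase.mpr ⟨hxb, hx⟩))
    have hirr2 := irr_snoc (Fin.snoc (α := fun _ => Ω) f c) b hirr1 g (by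
      intro i
      refine Fin.lastCases ?_ (fun i => ?_) i
      · rw [Fin.snoc_last]; exact hg c (Finset.mem_insert_self _ _)
      · rw [Fin.snoc_castSucc]; exact hg _ (Finset.mem_insert_of_mem (hfmem i))) hgb
    have hmem2 : ∀ x, x ∈ insert c B ↔ ∃ i, (Fin.snoc (α := fun _ => Ω) (Fin.snoc (α := fun _ => Ω) f c) b : Fin _ → Ω) i = x := by
      intro x
      constructor
      · intro hx
        rcases Finset.mem_insert.mp hx with rfl | hx
        · exact ⟨(Fin.last _).castSucc, by rw [Fin.snoc_castSucc, Fin.snoc_last]⟩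
        · by_cases hxb : x = b
          · exact ⟨Fin.last _, by rw [Fin.snoc_last, hxb]⟩
          · obtain ⟨i, rfl⟩ := hfsurj x (Finset.mem_erase.mpr ⟨hxb, hx⟩)
            exact ⟨i.castSucc.castSucc, by rw [Fin.snoc_castSucc, Fin.snoc_castSucc]⟩
      · rintro ⟨i, rfl⟩
        refine Fin.lastCases ?_ (fun i => ?_) i
        · rw [Fin.snoc_last]; exact Finset.mem_insert_of_mem hb
        · rw [Fin.snoc_castSucc]
          refine Fin.lastCases ?_ (fun i => ?_) i
          · rw [Fin.snoc_last]; exact Finset.mem_insert_self _ _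
          · rw [Fin.snoc_castSucc]; exact Finset.mem_insert_of_mem (Finset.mem_of_mem_erase (hfmem i))
    have hmb := IB.mb hyp (f := Fin.snoc (α := fun _ => Ω) (Fin.snoc (α := fun _ => Ω) f c) b) ⟨fun g hg => hB.1 g ?_, hirr2⟩ (insert c B) hmem2
    · obtain ⟨k, hk1, hk2⟩ := hmb.2 c (Finset.mem_insert_self _ _)
      apply hk2
      have : k = 1 := by
        apply hB.1
        intro x hx
        exact hk1 x (Finset.mem_insert_of_mem hx) (fun hh => hcB (hh ▸ hx))
      rw [this, one_smul]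
    · intro x hx
      obtain ⟨i, hi⟩ := (hmem2 x).mp (Finset.mem_insert_of_mem hx)
      rw [← hi]; exact hg i

theorem card_le [DecidableEq Ω] (hyp : ∀ (t : ℕ) (f : Fin t → Ω) (σ : Equiv.Perm (Fin t)), IB G f → IB G (f ∘ σ)) :
    ∀ (n : ℕ) (B C : Finset Ω), MB G B → MB G C → (B \ C).card = n → B.card ≤ C.card := by
  intro n
  induction n with
  | zero =>
    intro B C _ _ h
    rw [Finset.card_eq_zero, Finset.sdiff_eq_empty_iff_subset] at h
    exact Finset.card_le_card h
  | succ n ih =>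
    intro B C hB hC h
    obtain ⟨b, hb⟩ : (B \ C).Nonempty := by rw [← Finset.card_pos]; omega
    rw [Finset.mem_sdiff] at hb
    obtain ⟨c, hc, hcB, hmb⟩ := exchange hyp B C hB hC b hb.1 hb.2
    have h1 : (insert c (B.erase b)).card = B.card := by
      rw [Finset.card_insert_of_notMem (fun h => hcB (Finset.mem_of_mem_erase h)), Finset.card_erase_of_mem hb.1]
      have : 0 < B.card := Finset.card_pos.mpr ⟨b, hb.1⟩
      omega
    rw [← h1]
    apply ih _ _ hmb hC
    have : insert c (B.erase b) \ C = (B \ C).erase b := by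
      ext x
      simp only [Finset.mem_sdiff, Finset.mem_insert, Finset.mem_erase]
      constructor
      · rintro ⟨rfl | h, h2⟩
        · exact absurd hc h2
        · exact ⟨h.1, h.2, h2⟩
      · rintro ⟨h, h2, h3⟩
        exact ⟨Or.inr ⟨h, h2⟩, h3⟩
    rw [this, Finset.card_erase_of_mem (Finset.mem_sdiff.mpr hb), h]
    omega

theorem main : (∀ (t t' : ℕ) (f : Fin t → Ω) (f' : Fin t' → Ω), IB G f → IB G f' → t = t') ↔
    (∀ (t : ℕ) (f : Fin t → Ω) (σ : Equiv.Perm (Fin t)), IB G f → IB G (f ∘ σ)) := by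
  classical
  constructor
  · intro hyp t f σ hf
    have hb : ∀ g : G, (∀ i : Fin t, g • (f ∘ σ) i = (f ∘ σ) i) → g = 1 := by
      intro g hg
      apply hf.1
      intro i
      have := hg (σ.symm i)
      simpa using this
    obtain ⟨t', f', hf', hle, himp⟩ := greedy (f ∘ σ) hb
    exact himp (hyp _ _ _ _ hf' hf)
  · intro hyp t t' f f' hf hf'
    have hmem : ∀ (t : ℕ) (f : Fin t → Ω) (x : Ω), x ∈ Finset.univ.image f ↔ ∃ i, f i = x := fun t f x => by simp
    have h1 := IB.mb hyp hf (Finset.univ.image f) (hmem t f)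
    have h2 := IB.mb hyp hf' (Finset.univ.image f') (hmem t' f')
    have c1 : (Finset.univ.image f).card = t := by
      rw [Finset.card_image_of_injective _ hf.inj]; simp
    have c2 : (Finset.univ.image f').card = t' := by
      rw [Finset.card_image_of_injective _ hf'.inj]; simp
    have l1 := card_le hyp _ _ _ h1 h2 rfl
    have l2 := card_le hyp _ _ _ h2 h1 rfl
    omega

end H96.IBIS
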