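import Mathlib
set_option autoImplicit false
namespace H96.Singer

set_option linter.unusedSectionVars false
variable {F K : Type*} [Field F] [Fintype F] [Field K] [Fintype K] [Algebra F K]

/-- the Singer group -/
noncomputable abbrev sing (F K : Type*) [Field F] [Fintype F] [Field K] [Fintype K] [Algebra F K] : Subgroup (Module.End F K)ˣ :=
  (Units.map ((Algebra.lmul F K : K →ₐ[F] Module.End F K) : K →* Module.End F K)).range

noncomputable abbrev m (F : Type*) {K : Type*} [Field F] [Fintype F] [Field K] [Fintype K] [Algebra F K] (a : Kˣ) : (Module.End F K)ˣ :=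
  Units.map ((Algebra.lmul F K : K →ₐ[F] Module.End F K) : K →* Module.End F K) a

theorem m_apply (a : Kˣ) (x : K) : (m F a : Module.End F K) x = a * x := rfl

theorem mem_sing (h : (Module.End F K)ˣ) : h ∈ sing F K ↔ ∃ a : Kˣ, ∀ x, (h : Module.End F K) x = a * x := by
  constructor
  · rintro ⟨a, rfl⟩
    exact ⟨a, fun x => rfl⟩
  · rintro ⟨a, ha⟩
    refine ⟨a, ?_⟩
    apply Units.ext
    ext x
    rw [ha x]; rfl

theorem mem_sing' (h : (Module.End F K)ˣ) : h ∈ sing F K ↔ ∃ a : K, ∀ x, (h : Module.End F K) x = a * x := by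
  rw [mem_sing]
  constructor
  · rintro ⟨a, ha⟩; exact ⟨a, ha⟩
  · rintro ⟨a, ha⟩
    have ha0 : a ≠ 0 := by
      rintro rfl
      have h1 : (h : Module.End F K) (((h⁻¹ : (Module.End F K)ˣ) : Module.End F K) 1) = 1 := by
        rw [← Module.End.mul_apply, ← Units.val_mul, mul_inv_cancel]; rfl
      rw [ha, zero_mul] at h1
      exact zero_ne_one h1
    exact ⟨Units.mk0 a ha0, ha⟩

noncomputable def u (φ : K ≃ₐ[F] K) : (Module.End F K)ˣ :=
  ⟨φ.toLinearMap, φ.symm.toLinearMap, by ext x; simp, by ext x; simp⟩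

theorem u_apply (φ : K ≃ₐ[F] K) (x : K) : (u φ : Module.End F K) x = φ x := rfl

noncomputable def Phi (p : Kˣ × (K ≃ₐ[F] K)) : (Module.End F K)ˣ := m F p.1 * u p.2

theorem Phi_apply (p : Kˣ × (K ≃ₐ[F] K)) (x : K) : (Phi p : Module.End F K) x = p.1 * p.2 x := rfl

theorem Phi_inj : Function.Injective (Phi : Kˣ × (K ≃ₐ[F] K) → (Module.End F K)ˣ) := by
  rintro ⟨a, φ⟩ ⟨b, ψ⟩ h
  have h1 : ∀ x, (a : K) * φ x = b * ψ x := fun x => by
    have := congrArg (fun z : (Module.End F K)ˣ => (z : Module.End F K) x) h
    exact this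
  have h2 := h1 1
  rw [map_one, map_one, mul_one, mul_one] at h2
  have h3 : φ = ψ := by
    ext x
    have := h1 x
    rw [h2] at this
    exact mul_left_cancel₀ b.ne_zero this
  rw [h3, Units.ext h2]

theorem inv_apply_apply (g : (Module.End F K)ˣ) (x : K) : ((g⁻¹ : (Module.End F K)ˣ) : Module.End F K) ((g : Module.End F K) x) = x := by
  rw [← Module.End.mul_apply, ← Units.val_mul, inv_mul_cancel]; rfl

theorem apply_inv_apply (g : (Module.End F K)ˣ) (x : K) : (g : Module.End F K) (((g⁻¹ : (Module.End F K)ˣ) : Module.End F K) x) = x := by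
  rw [← Module.End.mul_apply, ← Units.val_mul, mul_inv_cancel]; rfl

theorem normalizer_eq : ((Subgroup.normalizer ((sing F K : Subgroup (Module.End F K)ˣ) : Set (Module.End F K)ˣ) : Subgroup (Module.End F K)ˣ) : Set (Module.End F K)ˣ) = Set.range Phi := by
  ext g
  rw [SetLike.mem_coe, Subgroup.mem_normalizer_iff]
  constructor
  · intro hg
    have h1 : ∀ a : K, ∃ b : K, ∀ x, (g : Module.End F K) (a * x) = b * (g : Module.End F K) x := by
      intro a
      by_cases ha : a = 0
      · exact ⟨0, fun x => by rw [ha, zero_mul, zero_mul, map_zero]⟩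
      · have h2 := (hg (m F (Units.mk0 a ha))).mp ((mem_sing _).mpr ⟨Units.mk0 a ha, fun x => rfl⟩)
        obtain ⟨b, hb⟩ := (mem_sing _).mp h2
        refine ⟨b, fun x => ?_⟩
        rw [← hb]
        simp only [Units.val_mul, Module.End.mul_apply]
        rw [inv_apply_apply]
        rfl
    choose f hf using h1
    have hc : (g : Module.End F K) 1 ≠ 0 := by
      intro h0
      have := inv_apply_apply g 1
      rw [h0, map_zero] at this
      exact zero_ne_one this
    set c := (g : Module.End F K) 1 with hcdef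
    have hfc : ∀ a, (g : Module.End F K) a = f a * c := fun a => by
      have := hf a 1
      rwa [mul_one] at this
    have hf' : ∀ a, f a = (g : Module.End F K) a * c⁻¹ := fun a => by
      rw [hfc a, mul_assoc, mul_inv_cancel₀ hc, mul_one]
    let fl : K →ₗ[F] K :=
      { toFun := f
        map_add' := fun a b => by rw [hf', hf' a, hf' b, map_add, add_mul]
        map_smul' := fun r a => by rw [hf', hf' a, map_smul, smul_mul_assoc]; rfl }
    have hone : f 1 = 1 := by rw [hf', ← hcdef, mul_inv_cancel₀ hc]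
    have hmul : ∀ a b, f (a * b) = f a * f b := fun a b => by
      rw [hf' (a * b), hf a b, hfc b, mul_assoc, mul_assoc, mul_inv_cancel₀ hc, mul_one]
    let fa : K →ₐ[F] K := AlgHom.ofLinearMap fl hone hmul
    have hbij : Function.Bijective fa := Finite.injective_iff_bijective.mp fa.toRingHom.injective
    refine ⟨(Units.mk0 c hc, AlgEquiv.ofBijective fa hbij), ?_⟩
    apply Units.ext
    ext x
    rw [Phi_apply, hfc x]
    change c * f x = f x * c
    rw [mul_comm]
  · rintro ⟨⟨c, φ⟩, rfl⟩ h
    rw [mem_sing, mem_sing]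
    constructor
    · rintro ⟨a, ha⟩
      refine ⟨Units.map (φ : K →* K) a, fun x => ?_⟩
      simp only [Units.val_mul, Module.End.mul_apply]
      rw [Phi_apply, ha, map_mul, mul_left_comm, ← Phi_apply (c, φ), apply_inv_apply]
      rfl
    · rintro ⟨a, ha⟩
      refine ⟨Units.map (φ.symm : K →* K) a, fun x => ?_⟩
      have h1 := ha ((Phi (c, φ) : Module.End F K) x)
      simp only [Units.val_mul, Module.End.mul_apply] at h1
      rw [inv_apply_apply, Phi_apply, Phi_apply] at h1
      simp only at h1
      rw [mul_left_comm] at h1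
      have h2 := mul_left_cancel₀ c.ne_zero h1
      have h3 := congrArg φ.symm h2
      rw [φ.symm_apply_apply, map_mul, φ.symm_apply_apply] at h3
      exact h3

theorem card_normalizer (n : ℕ) (hdim : Module.finrank F K = n) :
    Nat.card (Subgroup.normalizer ((sing F K : Subgroup (Module.End F K)ˣ) : Set (Module.End F K)ˣ)) = n * (Fintype.card K - 1) := by
  have h1 : Nat.card (Subgroup.normalizer ((sing F K : Subgroup (Module.End F K)ˣ) : Set (Module.End F K)ˣ)) = Nat.card (Set.range (Phi (F := F) (K := K))) := by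
    rw [← normalizer_eq]; rfl
  rw [h1, Nat.card_range_of_injective Phi_inj, Nat.card_prod, Nat.card_units, IsGalois.card_aut_eq_finrank, hdim, mul_comm, Nat.card_eq_fintype_card]

/-- the intermediate field of elements which lie in both -/
noncomputable def E (g : (Module.End F K)ˣ) : IntermediateField F K where
  carrier := {a | ∃ b : K, ∀ x, a * (g : Module.End F K) x = (g : Module.End F K) (b * x)}
  mul_mem' := by
    rintro a a' ⟨b, hb⟩ ⟨b', hb'⟩
    exact ⟨b * b', fun x => by rw [mul_assoc, hb', hb, mul_assoc]⟩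
  add_mem' := by
    rintro a a' ⟨b, hb⟩ ⟨b', hb'⟩
    exact ⟨b + b', fun x => by rw [add_mul, hb', hb, add_mul, map_add]⟩
  algebraMap_mem' r := ⟨algebraMap F K r, fun x => by
    rw [← Algebra.smul_def, ← Algebra.smul_def, map_smul]⟩
  inv_mem' := by
    rintro a ⟨b, hb⟩
    by_cases ha : a = 0
    · exact ⟨0, fun x => by rw [ha, inv_zero, zero_mul, zero_mul, map_zero]⟩
    · have hb0 : b ≠ 0 := by
        rintro rfl
        have h := hb (((g⁻¹ : (Module.End F K)ˣ) : Module.End F K) 1)
        rw [apply_inv_apply, zero_mul, map_zero, mul_one] at h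
        exact ha h
      refine ⟨b⁻¹, fun x => ?_⟩
      have h := hb (b⁻¹ * x)
      rw [mul_inv_cancel_left₀ hb0] at h
      rw [← h, inv_mul_cancel_left₀ ha]

theorem mem_E (g : (Module.End F K)ˣ) (a : K) : a ∈ E g ↔ ∃ b : K, ∀ x, a * (g : Module.End F K) x = (g : Module.End F K) (b * x) := Iff.rfl

theorem inter_eq (g : (Module.End F K)ˣ) :
    (sing F K).map (MulAut.conj g).toMonoidHom ⊓ sing F K =
      (Units.map (((Algebra.lmul F K : K →ₐ[F] Module.End F K) : K →* Module.End F K).comp ((E g).val : E g →* K))).range := by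
  ext h
  constructor
  · rintro ⟨⟨k, hk, rfl⟩, h2⟩
    simp only [MulEquiv.coe_toMonoidHom, MulAut.conj_apply] at h2 ⊢
    obtain ⟨b, hb⟩ := (mem_sing _).mp hk
    obtain ⟨a, ha⟩ := (mem_sing _).mp h2
    have haE : (a : K) ∈ E g := by
      rw [mem_E]
      refine ⟨b, fun x => ?_⟩
      rw [← ha]
      simp only [Units.val_mul, Module.End.mul_apply]
      rw [inv_apply_apply, hb]
    refine ⟨Units.mk0 ⟨a, haE⟩ (fun h0 => a.ne_zero (congrArg Subtype.val h0)), ?_⟩
    apply Units.ext
    ext x
    rw [ha]; rfl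
  · rintro ⟨a, rfl⟩
    obtain ⟨b, hb⟩ := (mem_E g ((a : E g) : K)).mp (a : E g).2
    have h2 : (Units.map (((Algebra.lmul F K : K →ₐ[F] Module.End F K) : K →* Module.End F K).comp ((E g).val : E g →* K))) a ∈ sing F K := by
      rw [mem_sing']
      exact ⟨((a : E g) : K), fun x => rfl⟩
    refine ⟨?_, h2⟩
    refine ⟨g⁻¹ * (Units.map (((Algebra.lmul F K : K →ₐ[F] Module.End F K) : K →* Module.End F K).comp ((E g).val : E g →* K))) a * g, ?_, ?_⟩
    · rw [SetLike.mem_coe, mem_sing']
      refine ⟨b, fun x => ?_⟩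
      simp only [Units.val_mul, Module.End.mul_apply]
      have : ((Units.map (((Algebra.lmul F K : K →ₐ[F] Module.End F K) : K →* Module.End F K).comp ((E g).val : E g →* K)) a : (Module.End F K)ˣ) : Module.End F K) ((g : Module.End F K) x) = ((a : E g) : K) * (g : Module.End F K) x := rfl
      rw [this, hb, inv_apply_apply]
    · simp only [MulEquiv.coe_toMonoidHom, MulAut.conj_apply]
      group

theorem inter (n : ℕ) (hdim : Module.finrank F K = n)
    (g : (Module.End F K)ˣ) (hg : (sing F K).map (MulAut.conj g).toMonoidHom ≠ sing F K) :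
    ∃ r : ℕ, 1 ≤ r ∧ r ∣ n ∧ r < n ∧ Nat.card ↥((sing F K).map (MulAut.conj g).toMonoidHom ⊓ sing F K) ∣ Fintype.card F ^ r - 1 := by
  refine ⟨Module.finrank F (E g), Module.finrank_pos, ?_, ?_, ?_⟩
  · rw [← hdim]
    exact ⟨_, (Module.finrank_mul_finrank F (E g) K).symm⟩
  · rw [← hdim]
    apply lt_of_le_of_ne
    · exact Submodule.finrank_le (E g).toSubalgebra.toSubmodule
    · intro heq
      have htop : E g = ⊤ := by
        have h1 : (E g).toSubalgebra.toSubmodule = ⊤ := Submodule.eq_top_of_finrank_eq heq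
        rw [eq_top_iff]
        intro x _
        have h2 : x ∈ (E g).toSubalgebra.toSubmodule := by rw [h1]; trivial
        exact h2
      apply hg
      have hle : sing F K ≤ (sing F K).map (MulAut.conj g).toMonoidHom := by
        intro h hh
        obtain ⟨a, ha⟩ := (mem_sing h).mp hh
        have haE : (a : K) ∈ E g := by rw [htop]; trivial
        obtain ⟨b, hb⟩ := (mem_E g a).mp haE
        refine ⟨g⁻¹ * h * g, ?_, by simp only [MulEquiv.coe_toMonoidHom, MulAut.conj_apply]; group⟩
        rw [SetLike.mem_coe, mem_sing']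
        refine ⟨b, fun x => ?_⟩
        simp only [Units.val_mul, Module.End.mul_apply]
        rw [ha, hb, inv_apply_apply]
      symm
      have hfin : Finite (Module.End F K) := DFunLike.finite (Module.End F K)
      apply Subgroup.eq_of_le_of_card_ge hle
      have : Nat.card ((sing F K).map (MulAut.conj g).toMonoidHom) = Nat.card (sing F K) := by
        apply Subgroup.card_map_of_injective
        exact (MulAut.conj g).injective
      rw [this]
  · rw [inter_eq]
    have hinj : Function.Injective (Units.map (((Algebra.lmul F K : K →ₐ[F] Module.End F K) : K →* Module.End F K).comp ((E g).val : E g →* K))) := by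
      intro a b hab
      have := congrArg (fun z : (Module.End F K)ˣ => (z : Module.End F K) 1) hab
      have h2 : ((a : E g) : K) * 1 = ((b : E g) : K) * 1 := this
      rw [mul_one, mul_one] at h2
      exact Units.ext (Subtype.ext h2)
    rw [← Nat.card_congr (MonoidHom.ofInjective hinj).toEquiv, Nat.card_units, Module.natCard_eq_pow_finrank (K := F) (V := E g), Nat.card_eq_fintype_card]

end H96.Singer
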