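import Mathlib
import Cfsg.Agent.Lib.H96.DerCount
set_option autoImplicit false
set_option linter.unusedSectionVars false
namespace H96.TwoTrans

variable {G Ω : Type*} [Group G] [Finite G] [MulAction G Ω] [Fintype Ω]

/-- two-point stabiliser -/
def st (G : Type*) {Ω : Type*} [Group G] [MulAction G Ω] (a b : Ω) : Subgroup G :=
  MulAction.stabilizer G a ⊓ MulAction.stabilizer G b

theorem mem_st (a b : Ω) (x : G) : x ∈ st G a b ↔ x • a = a ∧ x • b = b := Iff.rfl

theorem st_comm (a b : Ω) : st G a b = st G b a := inf_comm _ _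

/-- the 2-transitivity hypothesis -/
def TT (G Ω : Type*) [Group G] [MulAction G Ω] : Prop :=
  ∀ a b c d : Ω, a ≠ b → c ≠ d → ∃ g : G, g • a = c ∧ g • b = d

theorem conj_st {a b c d : Ω} {g : G} (h1 : g • a = c) (h2 : g • b = d) (x : G) :
    x ∈ st G a b ↔ g * x * g⁻¹ ∈ st G c d := by
  rw [mem_st, mem_st, ← h1, ← h2]
  simp only [mul_smul, inv_smul_smul, smul_left_cancel_iff]

theorem fix_conj (g x : G) : Nat.card (MulAction.fixedBy Ω (g * x * g⁻¹)) = Nat.card (MulAction.fixedBy Ω x) := by
  apply Nat.card_congr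
  exact
    { toFun := fun y => ⟨g⁻¹ • (y : Ω), by
        have h := y.2
        rw [MulAction.mem_fixedBy] at *
        rw [mul_smul, mul_smul] at h
        rw [eq_inv_smul_iff]; exact h⟩
      invFun := fun y => ⟨g • (y : Ω), by
        have h := y.2
        rw [MulAction.mem_fixedBy] at *
        rw [mul_smul, mul_smul, inv_smul_smul, h]⟩
      left_inv := fun y => by simp
      right_inv := fun y => by simp }

theorem card_st (h2 : TT G Ω) {a b c d : Ω} (hab : a ≠ b) (hcd : c ≠ d) :
    Nat.card (st G a b) = Nat.card (st G c d) := by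
  obtain ⟨g, h1, h2⟩ := h2 a b c d hab hcd
  apply Nat.card_congr
  exact
    { toFun := fun x => ⟨g * x * g⁻¹, (conj_st h1 h2 _).mp x.2⟩
      invFun := fun y => ⟨g⁻¹ * y * g, (conj_st h1 h2 _).mpr (by
        have : g * (g⁻¹ * (y : G) * g) * g⁻¹ = y := by group
        rw [this]; exact y.2)⟩
      left_inv := fun x => Subtype.ext (by simp only; group)
      right_inv := fun y => Subtype.ext (by simp only; group) }

theorem st_eq (h2 : TT G Ω) {a b c d : Ω} (hab : a ≠ b) (hcd : c ≠ d)
    (h : ∀ x ∈ st G a b, x • c = c ∧ x • d = d) : st G a b = st G c d :=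
  Subgroup.eq_of_le_of_card_ge (fun x hx => h x hx) (card_st h2 hab hcd).ge

/-- the line through a and b -/
noncomputable def line (G : Type*) {Ω : Type*} [Group G] [MulAction G Ω] [Fintype Ω] (a b : Ω) : Finset Ω := by
  classical exact Finset.univ.filter (fun c => ∀ x ∈ st G a b, x • c = c)

theorem mem_line (a b c : Ω) : c ∈ line G a b ↔ ∀ x ∈ st G a b, x • c = c := by
  classical simp [line]

theorem left_mem (a b : Ω) : a ∈ line G a b := (mem_line a b a).mpr (fun _ hx => hx.1)
theorem right_mem (a b : Ω) : b ∈ line G a b := (mem_line a b b).mpr (fun _ hx => hx.2)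

theorem line_eq (h2 : TT G Ω) {a b c d : Ω} (hab : a ≠ b) (hcd : c ≠ d)
    (hc : c ∈ line G a b) (hd : d ∈ line G a b) : line G a b = line G c d := by
  have : st G a b = st G c d := st_eq h2 hab hcd (fun x hx => ⟨(mem_line _ _ _).mp hc x hx, (mem_line _ _ _).mp hd x hx⟩)
  ext y
  rw [mem_line, mem_line, this]

theorem line_card (h2 : TT G Ω) {a b c d : Ω} (hab : a ≠ b) (hcd : c ≠ d) :
    (line G a b).card = (line G c d).card := by
  classical
  obtain ⟨g, hg1, hg2⟩ := h2 a b c d hab hcd
  apply Finset.card_bij (fun y _ => g • y)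
  · intro y hy
    rw [mem_line] at hy ⊢
    intro x hx
    have h3 := hy (g⁻¹ * x * g) ((conj_st hg1 hg2 _).mpr (by
        have : g * (g⁻¹ * x * g) * g⁻¹ = x := by group
        rw [this]; exact hx))
    rw [mul_smul, mul_smul, inv_smul_eq_iff] at h3
    exact h3
  · intro y _ z _ h
    exact smul_left_cancel g h
  · intro y hy
    refine ⟨g⁻¹ • y, ?_, by simp⟩
    rw [mem_line] at hy ⊢
    intro x hx
    have h3 := hy _ ((conj_st hg1 hg2 x).mp hx)
    rw [mul_smul, mul_smul] at h3
    rw [eq_inv_smul_iff]; exact h3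

/-- subspace bound -/
theorem fix_bound [FaithfulSMul G Ω] (h2 : TT G Ω) {a b : Ω} (hab : a ≠ b) (x : G) (hx : x ≠ 1) :
    Nat.card (MulAction.fixedBy Ω x) * ((line G a b).card - 1) ≤ Fintype.card Ω - 1 := by
  classical
  obtain ⟨c, hc⟩ : ∃ c : Ω, x • c ≠ c := by
    by_contra hcon
    push Not at hcon
    apply hx
    apply FaithfulSMul.eq_of_smul_eq_smul (α := Ω)
    intro ω; rw [one_smul, hcon]
  let Y : Finset Ω := Finset.univ.filter (fun y => x • y = y)
  have hY : ∀ y, y ∈ Y ↔ x • y = y := fun y => by simp [Y]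
  have hcardY : Nat.card (MulAction.fixedBy Ω x) = Y.card := by
    rw [Nat.card_eq_fintype_card, Fintype.card_subtype]
    rfl
  have hdisj : ∀ y ∈ Y, ∀ z ∈ Y, y ≠ z → Disjoint ((line G c y).erase c) ((line G c z).erase c) := by
    intro y hy z hz hyz
    rw [Finset.disjoint_left]
    intro w hw hw'
    rw [Finset.mem_erase] at hw hw'
    have hcy : c ≠ y := fun h => hc (h ▸ (hY y).mp hy)
    have hcz : c ≠ z := fun h => hc (h ▸ (hY z).mp hz)
    have e1 := line_eq h2 hcy hw.1.symm (left_mem (G := G) c y) hw.2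
    have e2 := line_eq h2 hcz hw.1.symm (left_mem (G := G) c z) hw'.2
    have hy' : y ∈ line G c w := by rw [← e1]; exact right_mem _ _
    have hz' : z ∈ line G c w := by rw [← e2]; exact right_mem _ _
    have e3 := line_eq h2 hw.1.symm hyz hy' hz'
    have hcm : c ∈ line G y z := by rw [← e3]; exact left_mem _ _
    exact hc ((mem_line _ _ _).mp hcm x ⟨(hY y).mp hy, (hY z).mp hz⟩)
  have h3 : (Y.biUnion (fun y => (line G c y).erase c)).card = ∑ y ∈ Y, ((line G c y).erase c).card :=
    Finset.card_biUnion hdisj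
  have h4 : ∀ y ∈ Y, ((line G c y).erase c).card = (line G a b).card - 1 := by
    intro y hy
    have hcy : c ≠ y := fun h => hc (h ▸ (hY y).mp hy)
    rw [Finset.card_erase_of_mem (left_mem _ _), line_card h2 hab hcy]
  rw [Finset.sum_congr rfl h4, Finset.sum_const, smul_eq_mul] at h3
  rw [hcardY, ← h3]
  have h5 : Y.biUnion (fun y => (line G c y).erase c) ⊆ Finset.univ.erase c := by
    intro w hw
    rw [Finset.mem_biUnion] at hw
    obtain ⟨y, _, hw⟩ := hw
    exact Finset.mem_erase.mpr ⟨(Finset.mem_erase.mp hw).1, Finset.mem_univ _⟩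
  have h6 := Finset.card_le_card h5
  rwa [Finset.card_erase_of_mem (Finset.mem_univ _), Finset.card_univ] at h6

/-- divisibility -/
theorem line_dvd (h2 : TT G Ω) {a b : Ω} (hab : a ≠ b) :
    ((line G a b).card - 1) ∣ Fintype.card Ω - 1 := by
  classical
  have h1 := Finset.card_eq_sum_card_image (fun d => line G a d) (Finset.univ.erase a)
  have h2' : ∀ ℓ ∈ (Finset.univ.erase a).image (fun d => line G a d),
      ((Finset.univ.erase a).filter (fun d => line G a d = ℓ)).card = (line G a b).card - 1 := by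
    intro ℓ hℓ
    rw [Finset.mem_image] at hℓ
    obtain ⟨d, hd, rfl⟩ := hℓ
    have hda : a ≠ d := (Finset.mem_erase.mp hd).1.symm
    have : (Finset.univ.erase a).filter (fun e => line G a e = line G a d) = (line G a d).erase a := by
      ext e
      simp only [Finset.mem_filter, Finset.mem_erase, Finset.mem_univ, and_true]
      constructor
      · rintro ⟨hea, he⟩
        exact ⟨hea, he ▸ right_mem _ _⟩
      · rintro ⟨hea, he⟩
        exact ⟨hea, (line_eq h2 hda hea.symm (left_mem _ _) he).symm⟩
    rw [this, Finset.card_erase_of_mem (left_mem _ _), line_card h2 hab hda]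
  rw [Finset.sum_congr rfl h2', Finset.sum_const, smul_eq_mul, Finset.card_erase_of_mem (Finset.mem_univ _), Finset.card_univ] at h1
  rw [h1]
  exact dvd_mul_left _ _

/-- double counting over pairs -/
theorem pair_sum [Fintype G] (h2 : TT G Ω) {a b : Ω} [Fintype (st G a b)] (hab : a ≠ b) (w : G → ℚ)
    (hw : ∀ g x, w (g * x * g⁻¹) = w x) :
    ∑ g : G, ((Nat.card (MulAction.fixedBy Ω g) : ℚ) * ((Nat.card (MulAction.fixedBy Ω g) : ℚ) - 1)) * w g
      = (Fintype.card Ω : ℚ) * ((Fintype.card Ω : ℚ) - 1) * ∑ x : st G a b, w x := by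
  classical
  have hoff : ∀ g : G, ((Nat.card (MulAction.fixedBy Ω g) : ℚ) * ((Nat.card (MulAction.fixedBy Ω g) : ℚ) - 1))
      = ∑ p ∈ (Finset.univ : Finset Ω).offDiag, if (g ∈ st G p.1 p.2) then (1 : ℚ) else 0 := by
    intro g
    have h1 : (Finset.univ.filter (fun y : Ω => g • y = y)).offDiag = (Finset.univ : Finset Ω).offDiag.filter (fun p => g ∈ st G p.1 p.2) := by
      ext ⟨y, z⟩
      simp only [Finset.mem_offDiag, Finset.mem_filter, Finset.mem_univ, true_and, mem_st]
      tauto
    have h3 : Nat.card (MulAction.fixedBy Ω g) = (Finset.univ.filter (fun y : Ω => g • y = y)).card := by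
      rw [Nat.card_eq_fintype_card, Fintype.card_subtype]; rfl
    rw [Finset.sum_ite, Finset.sum_const_zero, add_zero, Finset.sum_const, nsmul_eq_mul, mul_one, ← h1,
      Finset.offDiag_card, h3]
    rw [Nat.cast_sub (Nat.le_mul_self _)]
    push_cast; ring
  have hst : ∀ p ∈ (Finset.univ : Finset Ω).offDiag, ∑ g : G, (if (g ∈ st G p.1 p.2) then (1 : ℚ) else 0) * w g = ∑ x : st G a b, w x := by
    rintro ⟨c, d⟩ hp
    have hcd : c ≠ d := (Finset.mem_offDiag.mp hp).2.2
    obtain ⟨k, hk1, hk2⟩ := h2 a b c d hab hcd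
    simp only [ite_mul, one_mul, zero_mul]
    rw [← Finset.sum_filter]
    symm
    apply Finset.sum_bij (fun (x : st G a b) _ => k * (x : G) * k⁻¹)
    · intro x _
      rw [Finset.mem_filter]
      exact ⟨Finset.mem_univ _, (conj_st hk1 hk2 _).mp x.2⟩
    · intro x _ y _ h
      apply Subtype.ext
      simpa using h
    · intro g hg
      rw [Finset.mem_filter] at hg
      have e : k * (k⁻¹ * g * k) * k⁻¹ = g := by group
      exact ⟨⟨k⁻¹ * g * k, (conj_st hk1 hk2 _).mpr (by rw [e]; exact hg.2)⟩, Finset.mem_univ _, e⟩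
    · intro x _
      rw [hw]
  calc _ = ∑ g : G, ∑ p ∈ (Finset.univ : Finset Ω).offDiag, (if (g ∈ st G p.1 p.2) then (1 : ℚ) else 0) * w g := by
        apply Finset.sum_congr rfl
        intro g _
        rw [hoff, Finset.sum_mul]
    _ = ∑ p ∈ (Finset.univ : Finset Ω).offDiag, ∑ g : G, (if (g ∈ st G p.1 p.2) then (1 : ℚ) else 0) * w g := Finset.sum_comm
    _ = _ := by
        rw [Finset.sum_congr rfl hst, Finset.sum_const, nsmul_eq_mul, Finset.offDiag_card, Finset.card_univ]
        rw [Nat.cast_sub (Nat.le_mul_self _)]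
        push_cast; ring

/-- all orbits of two-point stabilisers of length at most two => two-point stabilisers have order at most 2 -/
theorem small_orbits [FaithfulSMul G Ω] (h2 : TT G Ω) {a b : Ω} (hab : a ≠ b)
    (hsmall : ∀ c : Ω, ((MulAction.stabilizer G c).relIndex (st G a b)) ≤ 2) : Nat.card (st G a b) ≤ 2 := by
  classical
  -- relative index bound for all pairs
  have hall : ∀ c d e : Ω, c ≠ d → ∀ x ∈ st G c d, ∀ y ∈ st G c d, x • e ≠ e → y • e ≠ e → (x⁻¹ * y) • e = e := by
    intro c d e hcd x hx y hy hxe hye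
    obtain ⟨g, hg1, hg2⟩ := h2 c d a b hcd hab
    have h3 := hsmall (g • e)
    have hx' := (conj_st hg1 hg2 x).mp hx
    have hy' := (conj_st hg1 hg2 y).mp hy
    have key : ∀ u ∈ st G a b, ∀ v ∈ st G a b, u • (g • e) ≠ g • e → v • (g • e) ≠ g • e → (u⁻¹ * v) • (g • e) = g • e := by
      intro u hu v hv hue hve
      by_contra hcon
      have hne : (MulAction.stabilizer G (g • e)).relIndex (st G a b) ≠ 0 := by
        have : Finite (st G a b) := inferInstance
        unfold Subgroup.relIndex
        exact Subgroup.index_ne_zero_of_finite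
      unfold Subgroup.relIndex at h3 hne
      have hcard : 2 < Nat.card (↥(st G a b) ⧸ (MulAction.stabilizer G (g • e)).subgroupOf (st G a b)) := by
        have hfin : Finite (↥(st G a b) ⧸ (MulAction.stabilizer G (g • e)).subgroupOf (st G a b)) := inferInstance
        rw [← Set.ncard_univ]
        let q1 : ↥(st G a b) ⧸ (MulAction.stabilizer G (g • e)).subgroupOf (st G a b) := QuotientGroup.mk 1
        let q2 : ↥(st G a b) ⧸ (MulAction.stabilizer G (g • e)).subgroupOf (st G a b) := QuotientGroup.mk ⟨u, hu⟩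
        let q3 : ↥(st G a b) ⧸ (MulAction.stabilizer G (g • e)).subgroupOf (st G a b) := QuotientGroup.mk ⟨v, hv⟩
        have n12 : q1 ≠ q2 := by
          intro h
          rw [QuotientGroup.eq] at h
          apply hue
          have : (1 : G)⁻¹ * u ∈ MulAction.stabilizer G (g • e) := h
          rw [inv_one, one_mul] at this
          exact this
        have n13 : q1 ≠ q3 := by
          intro h
          rw [QuotientGroup.eq] at h
          apply hve
          have : (1 : G)⁻¹ * v ∈ MulAction.stabilizer G (g • e) := h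
          rw [inv_one, one_mul] at this
          exact this
        have n23 : q2 ≠ q3 := by
          intro h
          rw [QuotientGroup.eq] at h
          apply hcon
          have : (u : G)⁻¹ * v ∈ MulAction.stabilizer G (g • e) := h
          exact this
        have : ({q1, q2, q3} : Set _).ncard = 3 := Set.ncard_eq_three.mpr ⟨q1, q2, q3, n12, n13, n23, rfl⟩
        have h4 := Set.ncard_le_ncard (Set.subset_univ ({q1, q2, q3} : Set _)) (Set.toFinite _)
        omega
      rw [Subgroup.index_eq_card] at h3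
      omega
    have hne1 : (g * x * g⁻¹) • (g • e) ≠ g • e := by
      rw [mul_smul, inv_smul_smul, mul_smul]
      intro h; exact hxe (smul_left_cancel g h)
    have hne2 : (g * y * g⁻¹) • (g • e) ≠ g • e := by
      rw [mul_smul, inv_smul_smul, mul_smul]
      intro h; exact hye (smul_left_cancel g h)
    have h5 := key _ hx' _ hy' hne1 hne2
    have h6 : ((g * x * g⁻¹)⁻¹ * (g * y * g⁻¹)) • (g • e) = g • ((x⁻¹ * y) • e) := by
      rw [← mul_smul, ← mul_smul]
      congr 1
      group
    rw [h6] at h5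
    exact smul_left_cancel g h5
  -- elements of two-point stabilisers are involutions
  have hsq : ∀ c d : Ω, c ≠ d → ∀ x ∈ st G c d, x * x = 1 := by
    intro c d hcd x hx
    apply FaithfulSMul.eq_of_smul_eq_smul (α := Ω)
    intro e
    rw [one_smul]
    by_cases he : x • e = e
    · rw [mul_smul, he, he]
    · have hxi : x⁻¹ ∈ st G c d := inv_mem hx
      have hie : x⁻¹ • e ≠ e := by
        intro h; apply he; rw [inv_smul_eq_iff] at h; exact h.symm
      have := hall c d e hcd x⁻¹ hxi x hx hie he
      rwa [inv_inv] at this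
  have hcomm : ∀ c d : Ω, c ≠ d → ∀ x ∈ st G c d, ∀ y ∈ st G c d, x * y = y * x := by
    intro c d hcd x hx y hy
    have h1 := hsq c d hcd x hx
    have h2 := hsq c d hcd y hy
    have h3 := hsq c d hcd (x * y) (mul_mem hx hy)
    have hx1 : x⁻¹ = x := inv_eq_of_mul_eq_one_left h1
    have hy1 : y⁻¹ = y := inv_eq_of_mul_eq_one_left h2
    have hxy : (x * y)⁻¹ = x * y := inv_eq_of_mul_eq_one_left h3
    rw [← hxy, mul_inv_rev, hx1, hy1]
  by_contra hcard
  push Not at hcard
  -- if an element of the stabiliser of c d moves e, its complement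
  -- choose c moved by H
  have hmv : ∀ S : Subgroup G, 1 < Nat.card S → ∃ x ∈ S, ∃ c : Ω, x • c ≠ c := by
    intro S hS
    have := Finite.one_lt_card_iff_nontrivial.mp hS
    obtain ⟨x, hx⟩ := exists_ne (1 : S)
    refine ⟨x, x.2, ?_⟩
    by_contra hcon
    push Not at hcon
    apply hx
    apply Subtype.ext
    apply FaithfulSMul.eq_of_smul_eq_smul (α := Ω)
    intro ω; rw [hcon]; exact (one_smul _ _).symm
  -- counting: a subgroup S of st c d, fixing e: card >= half
  have hhalf : ∀ c d e : Ω, c ≠ d → Nat.card (st G c d) ≤ 2 * Nat.card (st G c d ⊓ MulAction.stabilizer G e : Subgroup G) := by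
    intro c d e hcd
    by_cases hex : ∃ x ∈ st G c d, x • e ≠ e
    · obtain ⟨x, hx, hxe⟩ := hex
      -- map y |-> y or x*y into the stabiliser
      have hcov : ∀ y ∈ st G c d, y ∈ (st G c d ⊓ MulAction.stabilizer G e : Subgroup G) ∨ x⁻¹ * y ∈ (st G c d ⊓ MulAction.stabilizer G e : Subgroup G) := by
        intro y hy
        by_cases hye : y • e = e
        · left; exact ⟨hy, hye⟩
        · right; exact ⟨(st G c d).mul_mem ((st G c d).inv_mem hx) hy, hall c d e hcd x hx y hy hxe hye⟩
      have hinj : Function.Injective (fun y : st G c d => if h : (y : G) ∈ (st G c d ⊓ MulAction.stabilizer G e : Subgroup G) then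
          (Sum.inl ⟨y, h⟩ : (st G c d ⊓ MulAction.stabilizer G e : Subgroup G) ⊕ (st G c d ⊓ MulAction.stabilizer G e : Subgroup G))
          else Sum.inr ⟨x⁻¹ * y, (hcov y y.2).resolve_left h⟩) := by
        intro y z hyz
        simp only at hyz
        split_ifs at hyz with h1 h2
        · have := Sum.inl.inj hyz
          exact Subtype.ext (congrArg (fun t : (st G c d ⊓ MulAction.stabilizer G e : Subgroup G) => (t : G)) this)
        · have := Sum.inr.inj hyz
          have h3 := congrArg (fun t : (st G c d ⊓ MulAction.stabilizer G e : Subgroup G) => (t : G)) this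
          exact Subtype.ext (mul_left_cancel h3)
      have := Nat.card_le_card_of_injective _ hinj
      rw [Nat.card_sum] at this
      omega
    · push Not at hex
      have : st G c d ⊓ MulAction.stabilizer G e = st G c d := inf_eq_left.mpr (fun x hx => hex x hx)
      rw [this]; omega
  obtain ⟨x0, hx0, c, hx0c⟩ := hmv (st G a b) (by omega)
  -- D1 = st a b ∩ stab c
  have hD1 := hhalf a b c hab
  obtain ⟨d1, hd1, d, hd1d⟩ := hmv (st G a b ⊓ MulAction.stabilizer G c) (by omega)
  -- a,b,c,d distinct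
  have hac : a ≠ c := fun h => hx0c (h ▸ hx0.1)
  have hbc : b ≠ c := fun h => hx0c (h ▸ hx0.2)
  have hda : a ≠ d := fun h => hd1d (h ▸ hd1.1.1)
  have hdb : b ≠ d := fun h => hd1d (h ▸ hd1.1.2)
  have hcd : c ≠ d := fun h => hd1d (h ▸ hd1.2)
  -- d2 in st a b fixing d moving c
  obtain ⟨d2, hd2, hd2d, hd2c⟩ : ∃ d2 ∈ st G a b, d2 • d = d ∧ d2 • c ≠ c := by
    by_cases hx0d : x0 • d = d
    · exact ⟨x0, hx0, hx0d, hx0c⟩
    · refine ⟨d1⁻¹ * x0, mul_mem (inv_mem hd1.1) hx0, hall a b d hab d1 hd1.1 x0 hx0 hd1d hx0d, ?_⟩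
      intro h
      rw [mul_smul, inv_smul_eq_iff] at h
      rw [h] at hx0c
      exact hx0c hd1.2
  -- Q
  have hQle : ∀ c' d' e' : Ω, True := fun _ _ _ => trivial
  set Q : Subgroup G := st G a b ⊓ st G c d with hQ
  have hQcard : 4 * Nat.card Q ≤ Nat.card (st G a b) := by
    -- cosets Q, d1 Q, d2 Q, d1 d2 Q are disjoint in st a b
    let F : Q × (Bool × Bool) → st G a b := fun p =>
      ⟨(if p.2.1 then d1 else 1) * (if p.2.2 then d2 else 1) * p.1, by
        refine mul_mem (mul_mem ?_ ?_) p.1.2.1
        · split_ifs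
          · exact hd1.1
          · exact one_mem _
        · split_ifs
          · exact hd2
          · exact one_mem _⟩
    have hF : Function.Injective F := by
      rintro ⟨q, i, j⟩ ⟨q', i', j'⟩ h
      have hv := congrArg Subtype.val h
      simp only [F] at hv
      have hqc : (q : G) • c = c := q.2.2.1
      have hqd : (q : G) • d = d := q.2.2.2
      have hqc' : (q' : G) • c = c := q'.2.2.1
      have hqd' : (q' : G) • d = d := q'.2.2.2
      have hd1c : d1 • c = c := hd1.2
      have hcomm12 := hcomm a b hab d1 hd1.1 d2 hd2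
      have hvc := congrArg (fun g : G => g • c) hv
      have hvd := congrArg (fun g : G => g • d) hv
      simp only [mul_smul, hqc, hqd, hqc', hqd'] at hvc hvd
      have hj : j = j' := by
        rcases j with _ | _ <;> rcases j' with _ | _ <;> simp only at hvc ⊢
        · exfalso
          apply hd2c
          rcases i with _ | _ <;> rcases i' with _ | _ <;> simp only [if_true, if_false, one_smul, Bool.false_eq_true, hd1c] at hvc
          · exact hvc.symm
          · rw [eq_comm, ← mul_smul, hcomm12, mul_smul, hd1c] at hvc; exact hvc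
          · exact hvc.symm
          · rw [eq_comm, ← mul_smul, hcomm12, mul_smul, hd1c] at hvc; exact hvc
        · exfalso
          apply hd2c
          rcases i with _ | _ <;> rcases i' with _ | _ <;> simp only [if_true, if_false, one_smul, Bool.false_eq_true, hd1c] at hvc
          · exact hvc
          · exact hvc
          · rw [← mul_smul, hcomm12, mul_smul, hd1c] at hvc; exact hvc
          · rw [← mul_smul, hcomm12, mul_smul, hd1c] at hvc; exact hvc
      subst hj
      have hi : i = i' := by
        have e : (if j = true then d2 else 1) • d = d := by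
          split_ifs
          · exact hd2d
          · exact one_smul _ _
        rw [e] at hvd
        rcases i with _ | _ <;> rcases i' with _ | _ <;> simp only [if_true, if_false, one_smul, Bool.false_eq_true] at hvd ⊢
        · exact absurd hvd.symm hd1d
        · exact absurd hvd hd1d
      subst hi
      have := mul_left_cancel hv
      rw [Subtype.ext this]
    have h3 := Nat.card_le_card_of_injective F hF
    rw [Nat.card_prod, Nat.card_prod] at h3
    simp only [Nat.card_eq_fintype_card (α := Bool), Fintype.card_bool] at h3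
    omega
  have hQpos : 0 < Nat.card Q := Nat.card_pos
  -- e fixes a c d moves b
  obtain ⟨e, he, heb⟩ : ∃ e ∈ st G a c ⊓ MulAction.stabilizer G d, e • b ≠ b := by
    by_contra hcon
    push Not at hcon
    have hle : st G a c ⊓ MulAction.stabilizer G d ≤ Q := fun x hx => ⟨⟨hx.1.1, hcon x hx⟩, ⟨hx.1.2, hx.2⟩⟩
    have h3 := Subgroup.card_le_of_le hle
    have h4 := hhalf a c d hac
    have h5 := card_st h2 hab hac
    omega
  obtain ⟨e', he', hea'⟩ : ∃ e' ∈ st G b c ⊓ MulAction.stabilizer G d, e' • a ≠ a := by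
    by_contra hcon
    push Not at hcon
    have hle : st G b c ⊓ MulAction.stabilizer G d ≤ Q := fun x hx => ⟨⟨hcon x hx, hx.1.1⟩, ⟨hx.1.2, hx.2⟩⟩
    have h3 := Subgroup.card_le_of_le hle
    have h4 := hhalf b c d hbc
    have h5 := card_st h2 hab hbc
    omega
  -- e' commutes with st a b
  have hcH : ∀ x ∈ st G a b, x * e' = e' * x := by
    intro x hx
    -- x = product of d1, d2, q
    have c1 : d1 * e' = e' * d1 := hcomm b c hbc d1 ⟨hd1.1.2, hd1.2⟩ e' he'.1
    have c2 : d2 * e' = e' * d2 := hcomm b d hdb d2 ⟨hd2.2, hd2d⟩ e' ⟨he'.1.1, he'.2⟩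
    have cQ : ∀ q ∈ Q, q * e' = e' * q := fun q hq => hcomm c d hcd q hq.2 e' ⟨he'.1.2, he'.2⟩
    have c1' : d1⁻¹ * e' = e' * d1⁻¹ := by
      rw [inv_mul_eq_iff_eq_mul, ← mul_assoc, c1, mul_assoc, mul_inv_cancel, mul_one]
    -- first adjust at c
    have step : ∀ y ∈ st G a b, y • c = c → y * e' = e' * y := by
      intro y hy hyc
      by_cases hyd : y • d = d
      · exact cQ y ⟨hy, hyc, hyd⟩
      · have h3 : (d1⁻¹ * y) • d = d := hall a b d hab d1 hd1.1 y hy hd1d hyd
        have h4 : (d1⁻¹ * y) • c = c := by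
          rw [mul_smul, hyc, inv_smul_eq_iff]; exact hd1.2.symm
        have h5 := cQ _ ⟨(st G a b).mul_mem ((st G a b).inv_mem hd1.1) hy, h4, h3⟩
        calc y * e' = d1 * ((d1⁻¹ * y) * e') := by group
          _ = d1 * (e' * (d1⁻¹ * y)) := by rw [h5]
          _ = (d1 * e') * (d1⁻¹ * y) := by group
          _ = (e' * d1) * (d1⁻¹ * y) := by rw [c1]
          _ = e' * y := by group
    by_cases hxc : x • c = c
    · exact step x hx hxc
    · have h3 : (d2⁻¹ * x) • c = c := hall a b c hab d2 hd2 x hx hd2c hxc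
      have h5 := step _ (mul_mem (inv_mem hd2) hx) h3
      calc x * e' = d2 * ((d2⁻¹ * x) * e') := by group
        _ = d2 * (e' * (d2⁻¹ * x)) := by rw [h5]
        _ = (d2 * e') * (d2⁻¹ * x) := by group
        _ = (e' * d2) * (d2⁻¹ * x) := by rw [c2]
        _ = e' * x := by group
  have hce : e * e' = e' * e := hcomm c d hcd e ⟨he.1.2, he.2⟩ e' ⟨he'.1.2, he'.2⟩
  have hHeq : st G a b = st G a (e' • a) := by
    apply st_eq h2 hab (Ne.symm hea')
    intro x hx
    refine ⟨hx.1, ?_⟩
    rw [← mul_smul, hcH x hx, mul_smul, hx.1]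
  have heH : e ∈ st G a (e' • a) := by
    refine ⟨he.1.1, ?_⟩
    change e • e' • a = e' • a
    rw [← mul_smul, hce, mul_smul]
    congr 1
    exact he.1.1
  rw [← hHeq] at heH
  exact heb heH.2



/-- size of an orbit -/
noncomputable def osz (H : Subgroup G) (q : Quotient (MulAction.orbitRel H Ω)) : ℕ := Nat.card (MulAction.orbit H q.out)

theorem osz_mk (H : Subgroup G) (c : Ω) : osz H (Quotient.mk'' c) = Nat.card (MulAction.orbit H c) := by
  unfold osz
  have : MulAction.orbit H (Quotient.mk'' c : Quotient (MulAction.orbitRel H Ω)).out = MulAction.orbit H c := by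
    rw [MulAction.orbit_eq_iff]
    have := Quotient.exact' (Quotient.out_eq' (Quotient.mk'' c : Quotient (MulAction.orbitRel H Ω)))
    exact this
  rw [this]

theorem relIndex_eq (H : Subgroup G) (c : Ω) : (MulAction.stabilizer G c).relIndex H = Nat.card (MulAction.orbit H c) := by
  unfold Subgroup.relIndex
  have h1 : (MulAction.stabilizer G c).subgroupOf H = MulAction.stabilizer H c := by
    ext x; rfl
  rw [h1, MulAction.index_stabilizer]; rfl

theorem osz_pos (H : Subgroup G) (q : Quotient (MulAction.orbitRel H Ω)) : 1 ≤ osz H q := by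
  unfold osz
  have : Nonempty (MulAction.orbit H q.out) := ⟨⟨_, MulAction.mem_orbit_self _⟩⟩
  exact Nat.card_pos

theorem sum_osz (H : Subgroup G) [Fintype (Quotient (MulAction.orbitRel H Ω))] : ∑ q, osz (Ω := Ω) H q = Fintype.card Ω := by
  classical
  rw [← Nat.card_eq_fintype_card, Nat.card_congr (MulAction.selfEquivSigmaOrbits H Ω), Nat.card_sigma]
  rfl

theorem card_osz_one (a b : Ω) [Fintype (Quotient (MulAction.orbitRel (st G a b) Ω))] :
    (Finset.univ.filter (fun q : Quotient (MulAction.orbitRel (st G a b) Ω) => osz (st G a b) q = 1)).card = (line G a b).card := by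
  classical
  have key : ∀ c : Ω, osz (st G a b) (Quotient.mk'' c) = 1 ↔ c ∈ line G a b := by
    intro c
    rw [osz_mk, Nat.card_eq_one_iff_unique, mem_line]
    constructor
    · rintro ⟨h1, -⟩ x hx
      have := h1.elim ⟨(⟨x, hx⟩ : st G a b) • c, MulAction.mem_orbit _ _⟩ ⟨c, MulAction.mem_orbit_self _⟩
      exact congrArg Subtype.val this
    · intro h
      refine ⟨⟨?_⟩, ⟨⟨c, MulAction.mem_orbit_self _⟩⟩⟩
      rintro ⟨_, x, rfl⟩ ⟨_, y, rfl⟩
      apply Subtype.ext
      exact (h x x.2).trans (h y y.2).symm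
  apply Finset.card_bij (fun q _ => q.out)
  · intro q hq
    rw [Finset.mem_filter] at hq
    rw [← key, Quotient.out_eq']; exact hq.2
  · intro q _ q' _ h
    rw [← Quotient.out_eq' q, ← Quotient.out_eq' q', h]
  · intro c hc
    have h1 := (key c).mpr hc
    refine ⟨Quotient.mk'' c, Finset.mem_filter.mpr ⟨Finset.mem_univ _, h1⟩, ?_⟩
    have h2 := (Nat.card_eq_one_iff_unique.mp (by rw [osz_mk] at h1; exact h1)).1
    have h3 : (Quotient.mk'' c : Quotient (MulAction.orbitRel (st G a b) Ω)).out ∈ MulAction.orbit (st G a b) c :=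
      Quotient.exact' (Quotient.out_eq' (Quotient.mk'' c : Quotient (MulAction.orbitRel (st G a b) Ω)))
    exact congrArg Subtype.val (h2.elim ⟨_, h3⟩ ⟨c, MulAction.mem_orbit_self _⟩)

/-- the orbit equation: 2 N + s = n + f -/
theorem orbit_eq (a b : Ω) [Fintype (Quotient (MulAction.orbitRel (st G a b) Ω))] :
    2 * Fintype.card (Quotient (MulAction.orbitRel (st G a b) Ω)) + ∑ q, (osz (Ω := Ω) (st G a b) q - 2)
      = Fintype.card Ω + (line G a b).card := by
  classical
  have hn : Fintype.card Ω = ∑ q : Quotient (MulAction.orbitRel (st G a b) Ω), osz (st G a b) q := (sum_osz (st G a b)).symm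
  rw [hn, ← card_osz_one, Finset.card_filter, ← Finset.sum_add_distrib]
  have : 2 * Fintype.card (Quotient (MulAction.orbitRel (st G a b) Ω)) = ∑ q : Quotient (MulAction.orbitRel (st G a b) Ω), 2 := by
    rw [Finset.sum_const, Finset.card_univ, smul_eq_mul, mul_comm]
  rw [this, ← Finset.sum_add_distrib]
  apply Finset.sum_congr rfl
  intro q _
  have := osz_pos (st G a b) q
  split_ifs with h
  · omega
  · omega

/-- Cauchy-Schwarz bound -/
theorem cs_bound (a b : Ω) [Fintype (st G a b)] (hn : 0 < Fintype.card Ω)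
    (hh : 2 ≤ Fintype.card (st G a b))
    (hN : (2 * Fintype.card (st G a b) - 1) * Nat.card (Quotient (MulAction.orbitRel (st G a b) Ω)) ≤ Fintype.card Ω * Fintype.card (st G a b)) :
    (2 : ℚ) * Fintype.card (st G a b) ≤ ∑ x : st G a b, (Fintype.card Ω : ℚ) / Nat.card (MulAction.fixedBy Ω (x : G)) := by
  classical
  set h := Fintype.card (st G a b) with hhdef
  set n := Fintype.card Ω with hndef
  set N := Nat.card (Quotient (MulAction.orbitRel (st G a b) Ω)) with hNdef
  have hsum := H96.DerCount.sum_fix (G := st G a b) (Ω := Ω)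
  have hone : Nat.card (MulAction.fixedBy Ω ((1 : st G a b) : G)) = n := by
    rw [Subgroup.coe_one, MulAction.fixedBy_one_eq_univ, Nat.card_univ, Nat.card_eq_fintype_card]
  have hpos : ∀ x : st G a b, 0 < Nat.card (MulAction.fixedBy Ω (x : G)) := by
    intro x
    have : Nonempty (MulAction.fixedBy Ω (x : G)) := ⟨⟨a, x.2.1⟩⟩
    exact Nat.card_pos
  have hposQ : ∀ x : st G a b, (0 : ℚ) < Nat.card (MulAction.fixedBy Ω (x : G)) := fun x => by exact_mod_cast hpos x
  have e1 := Finset.add_sum_erase Finset.univ (fun x : st G a b => (Nat.card (MulAction.fixedBy Ω (x : G)) : ℚ)) (Finset.mem_univ (1 : st G a b))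
  have e2 := Finset.add_sum_erase Finset.univ (fun x : st G a b => (n : ℚ) / Nat.card (MulAction.fixedBy Ω (x : G))) (Finset.mem_univ (1 : st G a b))
  simp only [hone] at e1 e2
  have hsumQ : ∑ x : st G a b, (Nat.card (MulAction.fixedBy Ω (x : G)) : ℚ) = N * h := by
    have := congrArg (fun z : ℕ => (z : ℚ)) hsum
    push_cast at this
    rw [hhdef, ← Nat.card_eq_fintype_card (α := st G a b)]
    exact this
  rw [hsumQ] at e1
  have hnQ : (0 : ℚ) < n := by exact_mod_cast hn
  rw [div_self hnQ.ne'] at e2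
  -- Cauchy-Schwarz
  have hcs := Finset.sum_sq_le_sum_mul_sum_of_sq_le_mul (Finset.univ.erase (1 : st G a b))
    (r := fun _ => (1 : ℚ)) (f := fun x => (Nat.card (MulAction.fixedBy Ω (x : G)) : ℚ))
    (g := fun x => 1 / (Nat.card (MulAction.fixedBy Ω (x : G)) : ℚ))
    (fun x _ => (hposQ x).le) (fun x _ => (one_div_pos.mpr (hposQ x)).le)
    (fun x _ => by rw [one_pow, mul_one_div_cancel (hposQ x).ne'])
  rw [Finset.sum_const, nsmul_eq_mul, mul_one, Finset.card_erase_of_mem (Finset.mem_univ _), Finset.card_univ, ← hhdef] at hcs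
  have hh1 : ((h - 1 : ℕ) : ℚ) = (h : ℚ) - 1 := by rw [Nat.cast_sub (by omega)]; simp
  rw [hh1] at hcs
  set A := ∑ x ∈ Finset.univ.erase (1 : st G a b), (Nat.card (MulAction.fixedBy Ω (x : G)) : ℚ) with hA
  set B := ∑ x ∈ Finset.univ.erase (1 : st G a b), 1 / (Nat.card (MulAction.fixedBy Ω (x : G)) : ℚ) with hB
  have hnB : ∑ x ∈ Finset.univ.erase (1 : st G a b), (n : ℚ) / Nat.card (MulAction.fixedBy Ω (x : G)) = n * B := by
    rw [hB, Finset.mul_sum]
    apply Finset.sum_congr rfl
    intro x _; rw [mul_one_div]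
  rw [hnB] at e2
  rw [← e2]
  have hApos : 0 < A := by
    apply Finset.sum_pos (fun x _ => hposQ x)
    rw [← Finset.card_pos, Finset.card_erase_of_mem (Finset.mem_univ _), Finset.card_univ]
    omega
  have hNQ : (2 * (h : ℚ) - 1) * N ≤ n * h := by
    have h1 : (((2 * h - 1 : ℕ) * N : ℕ) : ℚ) ≤ ((n * h : ℕ) : ℚ) := by exact_mod_cast hN
    push_cast at h1
    rw [Nat.cast_sub (by omega)] at h1
    push_cast at h1
    exact h1
  have hAeq : A = N * h - n := by linarith
  have hhQ : (2 : ℚ) ≤ h := by exact_mod_cast hh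
  -- (2h-1) A ≤ n (h-1)^2
  have h3 : (2 * (h : ℚ) - 1) * A ≤ n * ((h : ℚ) - 1) ^ 2 := by
    rw [hAeq]
    nlinarith
  -- n*B >= 2h-1
  have h4 : (2 * (h : ℚ) - 1) * A ≤ (n * B) * A := by
    calc (2 * (h : ℚ) - 1) * A ≤ n * ((h : ℚ) - 1) ^ 2 := h3
      _ ≤ n * (A * B) := by apply mul_le_mul_of_nonneg_left hcs hnQ.le
      _ = (n * B) * A := by ring
  have h5 : 2 * (h : ℚ) - 1 ≤ n * B := le_of_mul_le_mul_right h4 hApos
  linarith

/-- bound when all nonidentity elements fix few points: fix x * k ≤ n - 1 -/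
theorem few_bound (a b : Ω) [Fintype (st G a b)] (hn : 2 ≤ Fintype.card Ω) (k : ℕ)
    (hfix : ∀ x : G, x ≠ 1 → Nat.card (MulAction.fixedBy Ω x) * k ≤ Fintype.card Ω - 1)
    (hh : 2 * Fintype.card (st G a b) * (Fintype.card Ω - 1) ≤ (Fintype.card Ω - 1) + (Fintype.card (st G a b) - 1) * k * Fintype.card Ω) :
    (2 : ℚ) * Fintype.card (st G a b) ≤ ∑ x : st G a b, (Fintype.card Ω : ℚ) / Nat.card (MulAction.fixedBy Ω (x : G)) := by
  classical
  set h := Fintype.card (st G a b) with hhdef
  set n := Fintype.card Ω with hndef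
  have hh1 : 1 ≤ h := Fintype.card_pos
  have hone : Nat.card (MulAction.fixedBy Ω ((1 : st G a b) : G)) = n := by
    rw [Subgroup.coe_one, MulAction.fixedBy_one_eq_univ, Nat.card_univ, Nat.card_eq_fintype_card]
  have hpos : ∀ x : st G a b, 0 < Nat.card (MulAction.fixedBy Ω (x : G)) := by
    intro x
    have : Nonempty (MulAction.fixedBy Ω (x : G)) := ⟨⟨a, x.2.1⟩⟩
    exact Nat.card_pos
  have hposQ : ∀ x : st G a b, (0 : ℚ) < Nat.card (MulAction.fixedBy Ω (x : G)) := fun x => by exact_mod_cast hpos x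
  have e2 := Finset.add_sum_erase Finset.univ (fun x : st G a b => (n : ℚ) / Nat.card (MulAction.fixedBy Ω (x : G))) (Finset.mem_univ (1 : st G a b))
  simp only [hone] at e2
  have hnQ : (0 : ℚ) < n := by
    have : 0 < n := by omega
    exact_mod_cast this
  rw [div_self hnQ.ne'] at e2
  rw [← e2]
  have hn1 : ((n - 1 : ℕ) : ℚ) = (n : ℚ) - 1 := by rw [Nat.cast_sub (by omega)]; simp
  have hn1pos : (0 : ℚ) < (n : ℚ) - 1 := by
    have : (2 : ℚ) ≤ n := by exact_mod_cast hn
    linarith
  have hterm : ∀ x ∈ Finset.univ.erase (1 : st G a b), (k : ℚ) * n / ((n : ℚ) - 1) ≤ (n : ℚ) / Nat.card (MulAction.fixedBy Ω (x : G)) := by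
    intro x hx
    have hx1 : (x : G) ≠ 1 := fun hh => (Finset.ne_of_mem_erase hx) (Subtype.ext hh)
    have h1 := hfix x hx1
    have h2 : (Nat.card (MulAction.fixedBy Ω (x : G)) : ℚ) * k ≤ (n : ℚ) - 1 := by
      rw [← hn1]; exact_mod_cast h1
    rw [div_le_div_iff₀ hn1pos (hposQ x)]
    nlinarith
  have hsum := Finset.sum_le_sum hterm
  rw [Finset.sum_const, nsmul_eq_mul, Finset.card_erase_of_mem (Finset.mem_univ _), Finset.card_univ, ← hhdef] at hsum
  have hh1Q : ((h - 1 : ℕ) : ℚ) = (h : ℚ) - 1 := by rw [Nat.cast_sub (by omega)]; simp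
  rw [hh1Q] at hsum
  have hhQ : 2 * (h : ℚ) * ((n : ℚ) - 1) ≤ ((n : ℚ) - 1) + ((h : ℚ) - 1) * k * n := by
    rw [← hn1, ← hh1Q]; exact_mod_cast hh
  have : 2 * (h : ℚ) ≤ 1 + ((h : ℚ) - 1) * (k * n / ((n : ℚ) - 1)) := by
    have h6 : ((h : ℚ) - 1) * (k * n / ((n : ℚ) - 1)) = (((h : ℚ) - 1) * k * n) / ((n : ℚ) - 1) := by ring
    rw [h6]
    have h7 : 2 * (h : ℚ) - 1 ≤ (((h : ℚ) - 1) * k * n) / ((n : ℚ) - 1) := by
      rw [le_div_iff₀ hn1pos]; linarith
    linarith
  linarith

/-- if some two-point stabiliser has a unique big orbit of length 3, others <= 2, contradiction -/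
theorem three_orbit [FaithfulSMul G Ω] (h2 : TT G Ω) {a b : Ω} (hab : a ≠ b) (hn : 7 ≤ Fintype.card Ω)
    (q0 : Quotient (MulAction.orbitRel (st G a b) Ω)) (hq0 : osz (st G a b) q0 = 3)
    (hq : ∀ q, q ≠ q0 → osz (st G a b) q ≤ 2) : False := by
  classical
  have : Fintype (st G a b) := Fintype.ofFinite _
  -- 3 divides |H|
  have h3 : 3 ∣ Nat.card (st G a b) := by
    have : (MulAction.stabilizer (st G a b) q0.out).index = 3 := by
      rw [MulAction.index_stabilizer]; exact hq0
    rw [← this]
    exact Subgroup.index_dvd_card _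
  obtain ⟨x, hx⟩ := exists_prime_orderOf_dvd_card' 3 h3
  have hx1 : x ≠ 1 := by
    rintro rfl; rw [orderOf_one] at hx; omega
  have hx3 : x ^ 3 = 1 := by rw [← hx]; exact pow_orderOf_eq_one x
  -- x fixes points outside q0
  have hfixout : ∀ c : Ω, (Quotient.mk'' c : Quotient (MulAction.orbitRel (st G a b) Ω)) ≠ q0 → x • c = c := by
    intro c hc
    have h1 := hq _ hc
    rw [osz_mk] at h1
    by_contra hne
    have hxx : x • x • x • c = c := by rw [← mul_smul, ← mul_smul, ← pow_three', hx3, one_smul]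
    have n1 : x • x • c ≠ x • c := fun h => hne (smul_left_cancel x h)
    have n2 : x • x • c ≠ c := by
      intro h
      rw [h] at hxx
      exact hne hxx
    have h4 : ({c, x • c, x • x • c} : Set Ω) ⊆ MulAction.orbit (st G a b) c := by
      intro y hy
      simp only [Set.mem_insert_iff, Set.mem_singleton_iff] at hy
      rcases hy with rfl | rfl | rfl
      · exact MulAction.mem_orbit_self _
      · exact MulAction.mem_orbit _ _
      · rw [← mul_smul]; exact MulAction.mem_orbit _ _
    have h5 : ({c, x • c, x • x • c} : Set Ω).ncard = 3 :=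
      Set.ncard_eq_three.mpr ⟨c, x • c, x • x • c, Ne.symm hne, Ne.symm n2, Ne.symm n1, rfl⟩
    have h6 := Set.ncard_le_ncard h4 (Set.toFinite _)
    have h7 : (MulAction.orbit (st G a b) c).ncard = Nat.card (MulAction.orbit (st G a b) c) := rfl
    omega
  -- the permutation
  let σ : Equiv.Perm Ω := MulAction.toPermHom G Ω (x : G)
  have hσ : ∀ c, σ c = x • c := fun c => rfl
  have hσ1 : σ ≠ 1 := by
    intro h
    apply hx1
    apply Subtype.ext
    apply FaithfulSMul.eq_of_smul_eq_smul (α := Ω)
    intro c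
    have := congrArg (fun s : Equiv.Perm Ω => s c) h
    simp only [Equiv.Perm.one_apply] at this
    rw [hσ] at this
    rw [Subgroup.coe_one, one_smul]
    exact this
  have hσ3 : σ ^ 3 = 1 := by
    have : σ ^ 3 = MulAction.toPermHom G Ω ((x : G) ^ 3) := by rw [map_pow]
    rw [this]
    have h8 : ((x : G) ^ 3) = 1 := by
      have := congrArg (fun z : st G a b => (z : G)) hx3
      simpa using this
    rw [h8, map_one]
  have hsup : σ.support.card ≤ 3 := by
    have h9 : (σ.support : Set Ω) ⊆ MulAction.orbit (st G a b) q0.out := by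
      intro c hc
      rw [Finset.mem_coe, Equiv.Perm.mem_support, hσ] at hc
      by_contra hcon
      apply hc
      apply hfixout
      intro h
      apply hcon
      rw [← h]
      have h10 : (MulAction.orbitRel (st G a b) Ω) c (Quotient.mk'' c : Quotient (MulAction.orbitRel (st G a b) Ω)).out :=
        Quotient.exact' (Quotient.out_eq' (Quotient.mk'' c : Quotient (MulAction.orbitRel (st G a b) Ω))).symm
      exact h10
    have h11 := Set.ncard_le_ncard h9 (Set.toFinite _)
    rw [Set.ncard_coe_finset] at h11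
    have : (MulAction.orbit (st G a b) q0.out).ncard = 3 := hq0
    omega
  have hthree : σ.IsThreeCycle := by
    rw [← card_support_eq_three_iff]
    have h12 : σ.support.card ≠ 0 := by
      rw [Ne, Equiv.Perm.card_support_eq_zero]; exact hσ1
    have h13 : σ.support.card ≠ 1 := Equiv.Perm.card_support_ne_one σ
    have h14 : σ.support.card ≠ 2 := by
      intro h
      rw [Equiv.Perm.card_support_eq_two] at h
      obtain ⟨y, z, hyz, hs⟩ := h
      rw [hs] at hσ3
      have : (Equiv.swap y z) ^ 3 = Equiv.swap y z := by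
        rw [pow_succ, sq, Equiv.swap_mul_self, one_mul]
      rw [this] at hσ3
      rw [hs] at hσ1
      exact hσ1 hσ3
    omega
  -- Jordan
  let K : Subgroup (Equiv.Perm Ω) := (MulAction.toPermHom G Ω).range
  have hK2 : MulAction.IsMultiplyPretransitive K Ω 2 := by
    rw [MulAction.is_two_pretransitive_iff]
    intro c d e f hcd hef
    obtain ⟨g, hg1, hg2⟩ := h2 c d e f hcd hef
    exact ⟨⟨MulAction.toPermHom G Ω g, g, rfl⟩, hg1, hg2⟩
  have hKp := MulAction.isPreprimitive_of_is_two_pretransitive hK2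
  have halt := Equiv.Perm.alternatingGroup_le_of_isPreprimitive_of_isThreeCycle_mem hKp hthree ⟨x, rfl⟩
  -- every c,d outside {a,b} in the same orbit
  have hsame : ∀ c d : Ω, c ≠ a → c ≠ b → d ≠ a → d ≠ b → d ∈ MulAction.orbit (st G a b) c := by
    intro c d hca hcb hda hdb
    by_cases hcd : c = d
    · rw [hcd]; exact MulAction.mem_orbit_self _
    obtain ⟨e, he⟩ : ∃ e, e ∉ ({a, b, c, d} : Finset Ω) := by
      by_contra hcon
      push Not at hcon
      have : Fintype.card Ω ≤ 4 := by
        rw [← Finset.card_univ]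
        refine (Finset.card_le_card (fun e _ => hcon e)).trans Finset.card_le_four
      omega
    simp only [Finset.mem_insert, Finset.mem_singleton, not_or] at he
    obtain ⟨hea, heb, hec, hed⟩ := he
    have h3c : (Equiv.swap d c * Equiv.swap d e).IsThreeCycle :=
      Equiv.Perm.isThreeCycle_swap_mul_swap_same (Ne.symm hcd) (Ne.symm hed) (Ne.symm hec)
    -- swap d c * swap d e : c -> d ; 
    obtain ⟨g, hg⟩ := halt h3c.mem_alternatingGroup
    have hg' : ∀ y, g • y = (Equiv.swap d c * Equiv.swap d e) y := fun y => by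
      rw [← hg]; rfl
    have hgc : g • c = d := by
      rw [hg', Equiv.Perm.mul_apply, Equiv.swap_apply_of_ne_of_ne hcd (Ne.symm hec), Equiv.swap_apply_right]
    have hga : g • a = a := by
      rw [hg', Equiv.Perm.mul_apply, Equiv.swap_apply_of_ne_of_ne hda.symm (Ne.symm hea), Equiv.swap_apply_of_ne_of_ne hda.symm hca.symm]
    have hgb : g • b = b := by
      rw [hg', Equiv.Perm.mul_apply, Equiv.swap_apply_of_ne_of_ne hdb.symm (Ne.symm heb), Equiv.swap_apply_of_ne_of_ne hdb.symm hcb.symm]
    rw [← hgc]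
    exact MulAction.mem_orbit c (⟨g, hga, hgb⟩ : st G a b)
  obtain ⟨c, hc⟩ : ∃ c, c ∉ ({a, b} : Finset Ω) := by
    by_contra hcon
    push Not at hcon
    have : Fintype.card Ω ≤ 2 := by
      rw [← Finset.card_univ]
      refine (Finset.card_le_card (fun e _ => hcon e)).trans Finset.card_le_two
    omega
  simp only [Finset.mem_insert, Finset.mem_singleton, not_or] at hc
  have hbig : Fintype.card Ω - 2 ≤ osz (st G a b) (Quotient.mk'' c) := by
    rw [osz_mk]
    have h15 : ((Finset.univ.erase a).erase b : Finset Ω) ⊆ (MulAction.orbit (st G a b) c).toFinset := by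
      intro d hd
      rw [Finset.mem_erase, Finset.mem_erase] at hd
      rw [Set.mem_toFinset]
      exact hsame c d hc.1 hc.2 hd.2.1 hd.1
    have h16 := Finset.card_le_card h15
    rw [Finset.card_erase_of_mem (Finset.mem_erase.mpr ⟨hab.symm, Finset.mem_univ _⟩), Finset.card_erase_of_mem (Finset.mem_univ _),
      Finset.card_univ, Set.toFinset_card, ← Nat.card_eq_fintype_card (α := MulAction.orbit (st G a b) c)] at h16
    omega
  have hle : osz (st G a b) (Quotient.mk'' c) ≤ 3 := by
    by_cases h : (Quotient.mk'' c : Quotient (MulAction.orbitRel (st G a b) Ω)) = q0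
    · rw [h, hq0]
    · exact (hq _ h).trans (by norm_num)
  omega

/-- order 84 acting on 7 points -/
theorem no_84 [FaithfulSMul G Ω] (htr : MulAction.IsPretransitive G Ω) (hn : Fintype.card Ω = 7) (hG : Nat.card G = 84) : False := by
  classical
  have : Fact (Nat.Prime 7) := ⟨by norm_num⟩
  obtain ⟨P⟩ : Nonempty (Sylow 7 G) := inferInstance
  have hPcard : Nat.card P = 7 := by
    have h1 := P.card_eq_multiplicity
    rw [hG] at h1
    have : Nat.factorization 84 7 = 1 := by
      rw [show (84 : ℕ) = 7 ^ 1 * 12 by norm_num]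
      rw [Nat.factorization_mul (by norm_num) (by norm_num)]
      simp only [Finsupp.coe_add, Pi.add_apply]
      rw [Nat.Prime.factorization_pow (by norm_num)]
      simp [Nat.factorization_eq_zero_of_not_dvd (show ¬ 7 ∣ 12 by norm_num)]
    rw [this, pow_one] at h1
    exact h1
  have hidx : (P : Subgroup G).index = 12 := by
    have := Subgroup.index_mul_card (P : Subgroup G)
    rw [hG] at this
    have h2 : Nat.card (P : Subgroup G) = 7 := hPcard
    rw [h2] at this
    omega
  have hone : Nat.card (Sylow 7 G) = 1 := by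
    have h1 := P.card_dvd_index
    rw [hidx] at h1
    have h2 := card_sylow_modEq_one 7 G
    have h3 : Nat.card (Sylow 7 G) ≤ 12 := Nat.le_of_dvd (by norm_num) h1
    unfold Nat.ModEq at h2
    interval_cases h : Nat.card (Sylow 7 G) <;> simp_all
  have hnorm : (P : Subgroup G).Normal := by
    have : Subsingleton (Sylow 7 G) := by
      rw [Nat.card_eq_one_iff_unique] at hone; exact hone.1
    exact P.normal_of_subsingleton
  obtain ⟨a⟩ : Nonempty Ω := Fintype.card_pos_iff.mp (by omega)
  -- P is transitive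
  have hPtr : ∀ c : Ω, c ∈ MulAction.orbit (P : Subgroup G) a := by
    have h1 : (MulAction.stabilizer (P : Subgroup G) a).index ∣ Nat.card (P : Subgroup G) := Subgroup.index_dvd_card _
    have hPc : Nat.card (P : Subgroup G) = 7 := hPcard
    rw [hPc] at h1
    rcases (Nat.dvd_prime (by norm_num)).mp h1 with h | h
    · -- P fixes a hence everything
      exfalso
      rw [Subgroup.index_eq_one] at h
      have hfix : ∀ x ∈ (P : Subgroup G), x = 1 := by
        intro x hx
        apply FaithfulSMul.eq_of_smul_eq_smul (α := Ω)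
        intro c
        obtain ⟨g, rfl⟩ := htr.exists_smul_eq a c
        have h2 : g⁻¹ * x * g⁻¹⁻¹ ∈ (P : Subgroup G) := hnorm.conj_mem x hx g⁻¹
        rw [inv_inv] at h2
        have h3 : (⟨g⁻¹ * x * g, h2⟩ : (P : Subgroup G)) ∈ MulAction.stabilizer (P : Subgroup G) a := by rw [h]; trivial
        have h4 : (g⁻¹ * x * g) • a = a := h3
        rw [mul_smul, mul_smul, inv_smul_eq_iff] at h4
        rw [one_smul]; exact h4
      have hbot : (P : Subgroup G) = ⊥ := by
        rw [eq_bot_iff]; intro x hx; exact hfix x hx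
      have : Nat.card (P : Subgroup G) = 1 := by rw [hbot]; simp
      have h2 : Nat.card (P : Subgroup G) = 7 := hPcard
      omega
    · rw [MulAction.index_stabilizer] at h
      intro c
      have : MulAction.orbit (P : Subgroup G) a = Set.univ := by
        apply Set.eq_of_subset_of_ncard_le (Set.subset_univ _)
        rw [Set.ncard_univ, Nat.card_eq_fintype_card, hn, h]
      rw [this]; trivial
  -- G_a embeds in Aut P
  have hcyc : IsCyclic P := isCyclic_of_prime_card hPcard
  have hmul : Nat.card (MulAut P) = 6 := by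
    rw [IsCyclic.card_mulAut, hPcard, Nat.totient_prime (by norm_num)]
  let φ : MulAction.stabilizer G a →* MulAut (P : Subgroup G) := (MulAut.conjNormal (H := (P : Subgroup G))).comp (MulAction.stabilizer G a).subtype
  have hφ : Function.Injective φ := by
    rw [injective_iff_map_eq_one]
    intro x hx
    apply Subtype.ext
    apply FaithfulSMul.eq_of_smul_eq_smul (α := Ω)
    intro c
    obtain ⟨p, rfl⟩ := hPtr c
    have h1 := congrArg (fun f : MulAut (P : Subgroup G) => ((f p : (P : Subgroup G)) : G)) hx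
    simp only [φ, MonoidHom.comp_apply, Subgroup.coe_subtype, MulAut.conjNormal_apply, MulAut.one_apply] at h1
    have h2 : (x : G) * p = p * x := by
      rw [mul_inv_eq_iff_eq_mul] at h1; exact h1
    change (x : G) • ((p : G) • a) = (1 : G) • ((p : G) • a)
    rw [← mul_smul, h2, mul_smul, one_smul]
    congr 1
    exact x.2
  have hle := Nat.card_le_card_of_injective φ hφ
  have h6 : Nat.card (MulAut (P : Subgroup G)) = 6 := hmul
  rw [h6] at hle
  have h7 : (MulAction.stabilizer G a).index = 7 := by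
    rw [MulAction.index_stabilizer_of_transitive, Nat.card_eq_fintype_card, hn]
  have h8 := Subgroup.index_mul_card (MulAction.stabilizer G a)
  rw [h7, hG] at h8
  omega

/-- the main estimate for 2-transitive groups with nontrivial two-point stabiliser -/
theorem estimate [FaithfulSMul G Ω] (h2 : TT G Ω) {a b : Ω} (hab : a ≠ b) [Fintype (st G a b)] (hn : 7 ≤ Fintype.card Ω)
    (hH : 2 ≤ Fintype.card (st G a b)) (hG : Nat.card G = Fintype.card Ω * (Fintype.card Ω - 1) * Fintype.card (st G a b))
    (htr : MulAction.IsPretransitive G Ω) :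
    (2 : ℚ) * Fintype.card (st G a b) ≤ ∑ x : st G a b, (Fintype.card Ω : ℚ) / Nat.card (MulAction.fixedBy Ω (x : G)) := by
  classical
  set h := Fintype.card (st G a b) with hhdef
  set n := Fintype.card Ω with hndef
  have hfb := fun x hx => fix_bound (G := G) h2 hab x hx
  have hdvd := line_dvd h2 hab
  rw [← hndef] at hfb hdvd
  have hQf : Fintype (Quotient (MulAction.orbitRel (st G a b) Ω)) := Fintype.ofFinite _
  have horb := orbit_eq (G := G) a b
  have hNcard : Nat.card (Quotient (MulAction.orbitRel (st G a b) Ω)) = Fintype.card (Quotient (MulAction.orbitRel (st G a b) Ω)) := Nat.card_eq_fintype_card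
  have hcs := cs_bound (G := G) (Ω := Ω) a b (by omega) hH
  rw [hNcard, ← hhdef, ← hndef] at hcs
  rw [← hndef] at horb
  set N := Fintype.card (Quotient (MulAction.orbitRel (st G a b) Ω)) with hN
  set s := ∑ q, (osz (Ω := Ω) (st G a b) q - 2) with hs
  set f := (line G a b).card with hf
  have hf2 : 2 ≤ f := by
    rw [hf]
    have : ({a, b} : Finset Ω) ⊆ line G a b := by
      intro c hc
      rcases Finset.mem_insert.mp hc with rfl | hc
      · exact left_mem _ _
      · rw [Finset.mem_singleton.mp hc]; exact right_mem _ _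
    have h3 := Finset.card_le_card this
    rwa [Finset.card_pair hab] at h3
  -- all orbits small => h = 2
  have hs0 : s = 0 → h = 2 := by
    intro hs0
    have h3 : ∀ q, osz (Ω := Ω) (st G a b) q ≤ 2 := by
      intro q
      have := (Finset.sum_eq_zero_iff.mp hs0) q (Finset.mem_univ _)
      omega
    have h4 := small_orbits h2 hab (fun c => by rw [relIndex_eq, ← osz_mk]; exact h3 _)
    rw [Nat.card_eq_fintype_card] at h4
    omega
  by_cases hf4 : 4 ≤ f
  · -- few fixed points
    apply few_bound (G := G) (Ω := Ω) a b (by omega) 3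
    · intro x hx
      have h3 := hfb x hx
      refine le_trans ?_ h3
      exact Nat.mul_le_mul_left _ (by omega)
    · rw [← hhdef, ← hndef]
      obtain ⟨m, hm⟩ : ∃ m, n = m + 1 := ⟨n - 1, by omega⟩
      obtain ⟨k, hk⟩ : ∃ k, h = k + 2 := ⟨h - 2, by omega⟩
      rw [hm, hk]
      simp only [Nat.add_sub_cancel]
      have : k + 2 - 1 = k + 1 := by omega
      rw [this]
      nlinarith
  · have hf23 : f = 2 ∨ f = 3 := by omega
    rcases hf23 with hf' | hf'
    · -- f = 2
      rw [hf'] at horb
      by_cases hs2 : 2 ≤ s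
      · apply hcs
        have : 2 * N ≤ n := by omega
        obtain ⟨k, hk⟩ : ∃ k, h = k + 1 := ⟨h - 1, by omega⟩
        rw [hk]
        have e : 2 * (k + 1) - 1 = 2 * k + 1 := by omega
        rw [e]
        nlinarith
      · have hs01 : s = 0 ∨ s = 1 := by omega
        rcases hs01 with h0 | h1
        · have hh2 := hs0 h0
          apply hcs
          rw [hh2]
          omega
        · exfalso
          obtain ⟨q0, hq0⟩ : ∃ q0, osz (Ω := Ω) (st G a b) q0 - 2 ≠ 0 := by
            by_contra hcon
            push Not at hcon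
            have : s = 0 := Finset.sum_eq_zero (fun q _ => hcon q)
            omega
          have hsplit := Finset.add_sum_erase Finset.univ (fun q => osz (Ω := Ω) (st G a b) q - 2) (Finset.mem_univ q0)
          rw [← hs, h1] at hsplit
          have hrest : ∑ q ∈ Finset.univ.erase q0, (osz (Ω := Ω) (st G a b) q - 2) = 0 := by omega
          refine three_orbit h2 hab hn q0 (by omega) (fun q hne => ?_)
          have := (Finset.sum_eq_zero_iff.mp hrest) q (Finset.mem_erase.mpr ⟨hne, Finset.mem_univ _⟩)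
          omega
    · -- f = 3
      rw [hf'] at horb hdvd hfb
      obtain ⟨t, ht⟩ := hdvd
      by_cases hs3 : 3 ≤ s
      · apply hcs
        have : 2 * N ≤ n := by omega
        obtain ⟨k, hk⟩ : ∃ k, h = k + 1 := ⟨h - 1, by omega⟩
        rw [hk]
        have e : 2 * (k + 1) - 1 = 2 * k + 1 := by omega
        rw [e]
        nlinarith
      · have hs012 : s = 0 ∨ s = 1 ∨ s = 2 := by omega
        rcases hs012 with h0 | h1 | h2'
        · have hh2 := hs0 h0
          by_cases hn9 : 9 ≤ n
          · apply hcs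
            rw [hh2]
            omega
          · exfalso
            have hn7 : n = 7 := by omega
            apply no_84 (G := G) (Ω := Ω) htr hn7
            rw [hG, hn7, hh2]
        · omega
        · by_cases hle : 2 * h ≤ n + 1
          · apply hcs
            have hN2 : 2 * N = n + 1 := by omega
            obtain ⟨k, hk⟩ : ∃ k, h = k + 1 := ⟨h - 1, by omega⟩
            rw [hk] at hle ⊢
            have e : 2 * (k + 1) - 1 = 2 * k + 1 := by omega
            rw [e]
            nlinarith
          · apply few_bound (G := G) (Ω := Ω) a b (by omega) 2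
            · intro x hx
              exact hfb x hx
            · rw [← hhdef, ← hndef]
              obtain ⟨m, hm⟩ : ∃ m, n = m + 1 := ⟨n - 1, by omega⟩
              obtain ⟨k, hk⟩ : ∃ k, h = k + 1 := ⟨h - 1, by omega⟩
              rw [hm, hk] at hle ⊢
              simp only [Nat.add_sub_cancel]
              nlinarith

theorem tt_of_rank (htr : MulAction.IsPretransitive G Ω) (hr : Nat.card (Quotient (MulAction.orbitRel G (Ω × Ω))) = 2) : TT G Ω := by
  classical
  intro a b c d hab hcd
  by_contra hcon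
  have n1 : (Quotient.mk'' (a, b) : Quotient (MulAction.orbitRel G (Ω × Ω))) ≠ Quotient.mk'' (c, d) := by
    intro h
    rw [eq_comm, Quotient.eq''] at h
    change (c, d) ∈ MulAction.orbit G (a, b) at h
    obtain ⟨g, hg⟩ := h
    simp only [Prod.smul_mk, Prod.mk.injEq] at hg
    exact hcon ⟨g, hg.1, hg.2⟩
  have n2 : ∀ c d : Ω, c ≠ d → (Quotient.mk'' (a, a) : Quotient (MulAction.orbitRel G (Ω × Ω))) ≠ Quotient.mk'' (c, d) := by
    intro c d hcd h
    rw [Quotient.eq''] at h
    change (a, a) ∈ MulAction.orbit G (c, d) at h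
    obtain ⟨g, hg⟩ := h
    simp only [Prod.smul_mk, Prod.mk.injEq] at hg
    exact hcd (MulAction.injective g (hg.1.trans hg.2.symm))
  have h3 : ({Quotient.mk'' (a, a), Quotient.mk'' (a, b), Quotient.mk'' (c, d)} : Set (Quotient (MulAction.orbitRel G (Ω × Ω)))).ncard = 3 :=
    Set.ncard_eq_three.mpr ⟨_, _, _, n2 a b hab, n2 c d hcd, n1, rfl⟩
  have h4 := Set.ncard_le_card ({Quotient.mk'' (a, a), Quotient.mk'' (a, b), Quotient.mk'' (c, d)} : Set (Quotient (MulAction.orbitRel G (Ω × Ω))))
  omega

theorem main [FaithfulSMul G Ω] (htr : MulAction.IsPretransitive G Ω) (hn : 7 ≤ Fintype.card Ω) :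
    (∃ a : ℕ, (a = 1 ∨ a = 2) ∧ (MulAction.IsPretransitive G Ω ∧ (∃ g : G, g ≠ 1 ∧ ∃ ω : Ω, g • ω = ω) ∧ ∀ g : G, g ≠ 1 → Nat.card (MulAction.fixedBy Ω g) ≤ 1) ∧ a * Nat.card G = Fintype.card Ω * (Fintype.card Ω - 1) ∧ Fintype.card Ω * Nat.card {g : G // ∀ ω : Ω, g • ω ≠ ω} = a * Nat.card G) ∨
    2 * Nat.card G ≤ Fintype.card Ω * Nat.card {g : G // ∀ ω : Ω, g • ω ≠ ω} := by
  classical
  have : Fintype G := Fintype.ofFinite G
  have hne : Nonempty Ω := Fintype.card_pos_iff.mp (by omega)
  have hc := H96.DerCount.count (G := G) htr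
  have hr := H96.DerCount.two_le_rank (G := G) (Ω := Ω) (by omega)
  have hnn := Finset.sum_nonneg (s := Finset.univ.filter (fun g : G => Nat.card (MulAction.fixedBy Ω g) ≠ 0)) (f := fun g : G =>
    ((Nat.card (MulAction.fixedBy Ω g) : ℤ) - 1) * ((Fintype.card Ω : ℤ) - Nat.card (MulAction.fixedBy Ω g)))
    (fun g hg => H96.DerCount.term_nonneg g (Finset.mem_filter.mp hg).2)
  have hGpos : 0 < Nat.card G := Nat.card_pos
  by_cases hr3 : 3 ≤ Nat.card (Quotient (MulAction.orbitRel G (Ω × Ω)))
  · right
    have hr3' : (3 : ℤ) ≤ Nat.card (Quotient (MulAction.orbitRel G (Ω × Ω))) := by exact_mod_cast hr3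
    have hG' : (0 : ℤ) < Nat.card G := by exact_mod_cast hGpos
    have : (2 : ℤ) * Nat.card G ≤ Fintype.card Ω * Nat.card {g : G // ∀ ω : Ω, g • ω ≠ ω} := by nlinarith
    exact_mod_cast this
  have hr2 : Nat.card (Quotient (MulAction.orbitRel G (Ω × Ω))) = 2 := by omega
  have h2 := tt_of_rank htr hr2
  obtain ⟨a, b, hab⟩ := Fintype.exists_pair_of_one_lt_card (α := Ω) (by omega)
  have hfst : Fintype (st G a b) := Fintype.ofFinite _
  -- order formula
  have h1 := H96.DerCount.sum_fix (G := G) (Ω := Ω)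
  have h2s := H96.DerCount.sum_fix_sq (G := G) (Ω := Ω)
  have horb : Nat.card (Quotient (MulAction.orbitRel G Ω)) = 1 := by
    rw [Nat.card_eq_one_iff_unique]
    refine ⟨?_, ⟨Quotient.mk'' (Classical.arbitrary Ω)⟩⟩
    exact (MulAction.pretransitive_iff_subsingleton_quotient G Ω).mp htr
  rw [horb, one_mul] at h1
  rw [hr2] at h2s
  have h1Q : (∑ g : G, (Nat.card (MulAction.fixedBy Ω g) : ℚ)) = Nat.card G := by
    rw [← h1]; push_cast; rfl
  have h2Q : (∑ g : G, (Nat.card (MulAction.fixedBy Ω g) : ℚ)^2) = 2 * Nat.card G := by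
    have := congrArg (fun x : ℕ => (x : ℚ)) h2s
    push_cast at this
    exact this
  have hcardQ : (Nat.card G : ℚ) = (Fintype.card Ω : ℚ) * ((Fintype.card Ω : ℚ) - 1) * Fintype.card (st G a b) := by
    have hp := pair_sum (G := G) h2 hab (fun _ => (1 : ℚ)) (fun _ _ => rfl)
    rw [Finset.sum_const, Finset.card_univ, nsmul_eq_mul, mul_one] at hp
    rw [← hp]
    have : ∀ g : G, ((Nat.card (MulAction.fixedBy Ω g) : ℚ) * ((Nat.card (MulAction.fixedBy Ω g) : ℚ) - 1)) * 1
      = (Nat.card (MulAction.fixedBy Ω g) : ℚ)^2 - (Nat.card (MulAction.fixedBy Ω g) : ℚ) := by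
      intro g; ring
    rw [Finset.sum_congr rfl (fun g _ => this g), Finset.sum_sub_distrib, h1Q, h2Q]
    ring
  have hcard : Nat.card G = Fintype.card Ω * (Fintype.card Ω - 1) * Fintype.card (st G a b) := by
    have h3 : ((Fintype.card Ω - 1 : ℕ) : ℚ) = (Fintype.card Ω : ℚ) - 1 := by rw [Nat.cast_sub (by omega)]; simp
    rw [← h3] at hcardQ
    exact_mod_cast hcardQ
  by_cases hh : 2 ≤ Fintype.card (st G a b)
  · right
    have hest := estimate (G := G) h2 hab hn hh hcard htr
    have hp := pair_sum (G := G) h2 hab (fun g => (Fintype.card Ω : ℚ) / Nat.card (MulAction.fixedBy Ω g) - 1)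
      (fun g x => by rw [fix_conj])
    rw [Finset.sum_sub_distrib, Finset.sum_const, Finset.card_univ, nsmul_eq_mul, mul_one] at hp
    have hfil : ∑ g ∈ Finset.univ.filter (fun g : G => Nat.card (MulAction.fixedBy Ω g) ≠ 0),
          ((Nat.card (MulAction.fixedBy Ω g) : ℚ) - 1) * ((Fintype.card Ω : ℚ) - Nat.card (MulAction.fixedBy Ω g))
        = ∑ g : G, ((Nat.card (MulAction.fixedBy Ω g) : ℚ) * ((Nat.card (MulAction.fixedBy Ω g) : ℚ) - 1)) * ((Fintype.card Ω : ℚ) / Nat.card (MulAction.fixedBy Ω g) - 1) := by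
      rw [Finset.sum_filter]
      apply Finset.sum_congr rfl
      intro g _
      split_ifs with h0
      · have h0' : (Nat.card (MulAction.fixedBy Ω g) : ℚ) ≠ 0 := by exact_mod_cast h0
        field_simp
      · push Not at h0
        rw [h0]; simp
    have hcQ := congrArg (fun z : ℤ => (z : ℚ)) hc
    push_cast at hcQ
    rw [hr2] at hcQ
    rw [hfil, hp] at hcQ
    have hnpos : (0 : ℚ) < (Fintype.card Ω : ℚ) * ((Fintype.card Ω : ℚ) - 1) := by
      have : (7 : ℚ) ≤ Fintype.card Ω := by exact_mod_cast hn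
      nlinarith
    have hge : (Nat.card G : ℚ) ≤ (Fintype.card Ω : ℚ) * ((Fintype.card Ω : ℚ) - 1) * (∑ x : st G a b, (Fintype.card Ω : ℚ) / Nat.card (MulAction.fixedBy Ω (x : G)) - Fintype.card (st G a b)) := by
      rw [hcardQ]
      apply mul_le_mul_of_nonneg_left _ hnpos.le
      linarith
    have hfin : (2 : ℚ) * Nat.card G ≤ Fintype.card Ω * Nat.card {g : G // ∀ ω : Ω, g • ω ≠ ω} := by
      rw [hcQ]
      push_cast
      linarith
    exact_mod_cast hfin
  · left
    have hh1 : Fintype.card (st G a b) = 1 := by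
      have : 0 < Fintype.card (st G a b) := Fintype.card_pos
      omega
    have hbot : ∀ c d : Ω, c ≠ d → ∀ x ∈ st G c d, x = 1 := by
      intro c d hcd x hx
      have h3 := card_st (G := G) h2 hab hcd
      rw [Nat.card_eq_fintype_card, hh1] at h3
      have h4 : Subsingleton (st G c d) := by
        rw [eq_comm, Nat.card_eq_one_iff_unique] at h3; exact h3.1
      exact congrArg Subtype.val (h4.elim ⟨x, hx⟩ 1)
    have hle1 : ∀ g : G, g ≠ 1 → Nat.card (MulAction.fixedBy Ω g) ≤ 1 := by
      intro g hg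
      by_contra hcon
      push Not at hcon
      have : Nontrivial (MulAction.fixedBy Ω g) := Finite.one_lt_card_iff_nontrivial.mp hcon
      obtain ⟨⟨c, hc⟩, ⟨d, hd⟩, hcd⟩ := this
      exact hg (hbot c d (fun h => hcd (Subtype.ext h)) g ⟨hc, hd⟩)
    rcases H96.DerCount.main (G := G) htr (by omega) with h | h
    · exact ⟨1, Or.inl rfl, h.1, by rw [one_mul]; exact h.2.1, by rw [one_mul]; exact h.2.2⟩
    · exfalso
      have hz : ∑ g ∈ Finset.univ.filter (fun g : G => Nat.card (MulAction.fixedBy Ω g) ≠ 0),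
          ((Nat.card (MulAction.fixedBy Ω g) : ℤ) - 1) * ((Fintype.card Ω : ℤ) - Nat.card (MulAction.fixedBy Ω g)) = 0 := by
        apply Finset.sum_eq_zero
        intro g hg
        by_cases hg1 : g = 1
        · rw [hg1, MulAction.fixedBy_one_eq_univ, Nat.card_univ, Nat.card_eq_fintype_card]
          ring
        · have h3 := hle1 g hg1
          have h4 := (Finset.mem_filter.mp hg).2
          have h5 : Nat.card (MulAction.fixedBy Ω g) = 1 := by omega
          rw [h5]; simp
      rw [hz, hr2] at hc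
      push_cast at hc
      have : Fintype.card Ω * Nat.card {g : G // ∀ ω : Ω, g • ω ≠ ω} = Nat.card G := by
        have : (Fintype.card Ω : ℤ) * Nat.card {g : G // ∀ ω : Ω, g • ω ≠ ω} = Nat.card G := by linarith
        exact_mod_cast this
      omega

end H96.TwoTrans
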